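/-
Extensions by elementary abelian groups with the same prime graph.
-/
import Mathlib

set_option autoImplicit false
set_option linter.unusedVariables false
set_option linter.unusedSectionVars false
set_option linter.style.haveILetI false
set_option linter.unusedSimpArgs false

namespace Cfsg.Agent.Lib.H14.PGUnb

open SemidirectProduct Matrix

section core

variable {N G : Type*} [CommGroup N] [Group G] {φ : G →* MulAut N}

theorem pow_eq_inl {h : N ⋊[φ] G} {d : ℕ} (hd : (rightHom h) ^ d = 1) : h ^ d = inl (h ^ d).left := by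
  apply SemidirectProduct.ext
  · simp
  · have : (h ^ d).right = 1 := by
      have := map_pow (rightHom : N ⋊[φ] G →* G) h d
      rw [hd] at this
      simpa [rightHom] using this
    simpa using this

/-- The main case. -/
theorem case_aux {p : ℕ} (hM : ∀ s, s.Prime → s ≠ p → ∀ g : G, orderOf g = s → ∀ n : N, n ≠ 1 → φ g n = n →
      ∃ x : G, orderOf x = p * s) (hN : ∀ n : N, n ^ p = 1) (hp : p.Prime)
    {r s : ℕ} (hr : r.Prime) (hs : s.Prime) (hrs : r ≠ s) (h : N ⋊[φ] G) (ho : orderOf h = r * s)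
    (hd : orderOf (rightHom h) = r) : ∃ x : G, orderOf x = r * s := by
  have hr0 := hr.pos
  have hs0 := hs.pos
  have h1 : (rightHom h) ^ r = 1 := by
    rw [← hd]
    exact pow_orderOf_eq_one _
  have h2 : h ^ r = inl (h ^ r).left := pow_eq_inl h1
  have h3 : (h ^ r) ^ p = 1 := by
    rw [h2, ← map_pow, hN, map_one]
  have h4 : r * s ∣ r * p := by
    rw [← ho]
    apply orderOf_dvd_of_pow_eq_one
    rw [pow_mul, h3]
  have h5 : s ∣ p := Nat.dvd_of_mul_dvd_mul_left hr0 h4
  have h6 : s = p := (Nat.prime_dvd_prime_iff_eq hs hp).1 h5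
  subst h6
  have hc : Nat.Coprime r s := (Nat.coprime_primes hr hs).2 hrs
  -- `w = h ^ r` has order `s`
  have hw : orderOf (h ^ r) = s := by
    rw [orderOf_pow_of_dvd hr.ne_zero (by rw [ho]; exact dvd_mul_right _ _), ho]
    exact Nat.mul_div_cancel_left _ hr0
  set n : N := (h ^ r).left with hn
  have hn1 : n ≠ 1 := by
    intro e
    rw [e, map_one] at h2
    rw [h2, orderOf_one] at hw
    exact hs.one_lt.ne hw
  -- `u = h ^ s`
  set u : N ⋊[φ] G := h ^ s with hu
  have hur : orderOf (rightHom u) = r := by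
    rw [hu, map_pow, orderOf_pow' _ hs.ne_zero, hd, Nat.Coprime.gcd_eq_one hc]
    simp
  have hcomm : u * h ^ r = h ^ r * u := by
    rw [hu, ← pow_add, ← pow_add, add_comm]
  have hfix : φ (rightHom u) n = n := by
    have e1 := congrArg SemidirectProduct.left hcomm
    rw [h2] at e1
    simp only [mul_left, left_inl, right_inl, map_one, MulAut.one_apply] at e1
    have e2 : u.left * φ u.right n = u.left * n := by
      rw [e1, mul_comm]
    exact mul_left_cancel e2
  obtain ⟨x, hx⟩ := hM r hr (Ne.symm (by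
    intro e
    exact hrs e.symm)) (rightHom u) hur n hn1 hfix
  exact ⟨x, by rw [hx, mul_comm]⟩

/-- Elements of order `r s` in the extension. -/
theorem order_transfer {p : ℕ} (hM : ∀ s, s.Prime → s ≠ p → ∀ g : G, orderOf g = s → ∀ n : N, n ≠ 1 → φ g n = n →
      ∃ x : G, orderOf x = p * s) (hN : ∀ n : N, n ^ p = 1) (hp : p.Prime)
    {r s : ℕ} (hr : r.Prime) (hs : s.Prime) (hrs : r ≠ s) (h : N ⋊[φ] G) (ho : orderOf h = r * s) :
    ∃ x : G, orderOf x = r * s := by
  have hdvd : orderOf (rightHom h) ∣ r * s := by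
    rw [← ho]
    exact orderOf_map_dvd _ _
  obtain ⟨k₁, k₂, hk₁, hk₂, hk⟩ := (Nat.dvd_mul).1 hdvd
  rcases (Nat.dvd_prime hr).1 hk₁ with rfl | rfl <;> rcases (Nat.dvd_prime hs).1 hk₂ with rfl | rfl
  · -- order one
    exfalso
    have h1 : (rightHom h) ^ 1 = 1 := by
      rw [← hk.symm.trans (by ring : 1 * 1 = 1).symm.symm]
      simp
    have h2 : h ^ 1 = inl (h ^ 1).left := pow_eq_inl h1
    have h3 : (h ^ 1) ^ p = 1 := by
      rw [h2, ← map_pow, hN, map_one]
    have h4 : r * s ∣ 1 * p := by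
      rw [← ho]
      apply orderOf_dvd_of_pow_eq_one
      rw [pow_mul, h3]
    rw [one_mul] at h4
    have e1 : r = p := (Nat.prime_dvd_prime_iff_eq hr hp).1 (dvd_trans (dvd_mul_right _ _) h4)
    have e2 : s = p := (Nat.prime_dvd_prime_iff_eq hs hp).1 (dvd_trans (dvd_mul_left _ _) h4)
    exact hrs (e1.trans e2.symm)
  · exact case_aux hM hN hp hs hr (Ne.symm hrs) h (by rw [ho, mul_comm]) (by rw [← hk, one_mul]) |>.imp
      (fun x hx => by rw [hx, mul_comm])
  · exact case_aux hM hN hp hr hs hrs h ho (by rw [← hk, mul_one])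
  · exact ⟨_, (hk.symm)⟩

theorem order_iff {p : ℕ} (hM : ∀ s, s.Prime → s ≠ p → ∀ g : G, orderOf g = s → ∀ n : N, n ≠ 1 → φ g n = n →
      ∃ x : G, orderOf x = p * s) (hN : ∀ n : N, n ^ p = 1) (hp : p.Prime)
    {r s : ℕ} (hr : r.Prime) (hs : s.Prime) (hrs : r ≠ s) :
    (∃ x : G, orderOf x = r * s) ↔ ∃ h : N ⋊[φ] G, orderOf h = r * s := by
  constructor
  · rintro ⟨x, hx⟩
    refine ⟨inr x, ?_⟩
    rw [orderOf_injective (inr : G →* N ⋊[φ] G) inr_injective x, hx]
  · rintro ⟨h, hh⟩
    exact order_transfer hM hN hp hr hs hrs h hh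

end core

section mat

variable {G : Type*} [Group G] {K : Type*} [Field K] {n : ℕ} (ρ : G →* Matrix (Fin n) (Fin n) K) (k : ℕ)

/-- The action on `k` copies of the natural module. -/
def actE (g : G) : MulAut (Multiplicative (Fin k → Fin n → K)) where
  toFun v := Multiplicative.ofAdd (fun i => ρ g *ᵥ (Multiplicative.toAdd v i))
  invFun v := Multiplicative.ofAdd (fun i => ρ g⁻¹ *ᵥ (Multiplicative.toAdd v i))
  left_inv v := by
    apply Multiplicative.toAdd.injective
    funext i
    simp [mulVec_mulVec, ← map_mul]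
  right_inv v := by
    apply Multiplicative.toAdd.injective
    funext i
    simp [mulVec_mulVec, ← map_mul]
  map_mul' u v := by
    apply Multiplicative.toAdd.injective
    funext i
    simp [mulVec_add]

/-- The action. -/
def act : G →* MulAut (Multiplicative (Fin k → Fin n → K)) where
  toFun g := actE ρ k g
  map_one' := by
    refine MulEquiv.ext fun v => ?_
    apply Multiplicative.toAdd.injective
    funext i
    simp [actE]
  map_mul' a b := by
    refine MulEquiv.ext fun v => ?_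
    apply Multiplicative.toAdd.injective
    funext i
    simp [actE, mulVec_mulVec]

theorem act_apply (g : G) (v : Multiplicative (Fin k → Fin n → K)) (i : Fin k) :
    Multiplicative.toAdd (act ρ k g v) i = ρ g *ᵥ (Multiplicative.toAdd v i) := rfl

end mat

/-- **Unbounded extensions with the same prime graph.** -/
theorem unbounded {G : Type} [Group G] [Finite G] {K : Type} [Field K] [Fintype K] {n : ℕ} (hn : 0 < n)
    (ρ : G →* Matrix (Fin n) (Fin n) K) (p : ℕ) [hp : Fact p.Prime] [CharP K p] (hpG : p ∣ Nat.card G)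
    (hM : ∀ s, s.Prime → s ≠ p → ∀ g : G, orderOf g = s → ∀ v : Fin n → K, v ≠ 0 → ρ g *ᵥ v = v →
      ∃ x : G, orderOf x = p * s) (N₀ : ℕ) :
    ∃ (H : Type) (_ : Group H) (_ : Finite H), N₀ < Nat.card H ∧
      (∀ q : ℕ, q.Prime → (q ∣ Nat.card G ↔ q ∣ Nat.card H)) ∧
      (∀ r s : ℕ, r.Prime → s.Prime → r ≠ s → ((∃ g : G, orderOf g = r * s) ↔ ∃ h : H, orderOf h = r * s)) := by
  classical
  set N : Type := Multiplicative (Fin N₀ → Fin n → K) with hN
  have hcardN : Nat.card N = (Fintype.card K ^ n) ^ N₀ := by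
    rw [hN]
    change Nat.card (Fin N₀ → Fin n → K) = _
    rw [Nat.card_eq_fintype_card, Fintype.card_fun, Fintype.card_fun]
    simp
  obtain ⟨f, hf1, hf2⟩ := FiniteField.card K p
  have hNp : ∀ v : N, v ^ p = 1 := by
    intro v
    apply Multiplicative.toAdd.injective
    have h1 : Multiplicative.toAdd (v ^ p) = p • Multiplicative.toAdd v := toAdd_pow v p
    rw [h1]
    funext i j
    change p • (Multiplicative.toAdd v i j) = 0
    rw [nsmul_eq_mul, CharP.cast_eq_zero, zero_mul]
  refine ⟨N ⋊[act ρ N₀] G, inferInstance, ?_, ?_, ?_, ?_⟩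
  · have : Finite N := by
      rw [hN]
      exact (inferInstance : Finite (Fin N₀ → Fin n → K))
    exact Finite.of_equiv _ (SemidirectProduct.equivProd (φ := act ρ N₀)).symm
  · rw [Nat.card_congr (SemidirectProduct.equivProd (φ := act ρ N₀)), Nat.card_prod, hcardN]
    have h1 : 2 ≤ Fintype.card K := Fintype.one_lt_card
    have h2 : 2 ≤ Fintype.card K ^ n := by
      calc 2 ≤ Fintype.card K := h1
        _ ≤ Fintype.card K ^ n := Nat.le_self_pow (by omega) _
    have h3 : N₀ < (Fintype.card K ^ n) ^ N₀ := by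
      calc N₀ < 2 ^ N₀ := Nat.lt_two_pow_self
        _ ≤ (Fintype.card K ^ n) ^ N₀ := Nat.pow_le_pow_left h2 _
    have h4 : 1 ≤ Nat.card G := Nat.card_pos
    nlinarith
  · intro q hq
    rw [Nat.card_congr (SemidirectProduct.equivProd (φ := act ρ N₀)), Nat.card_prod, hcardN]
    constructor
    · intro h
      exact dvd_mul_of_dvd_right h _
    · intro h
      rcases (Nat.Prime.dvd_mul hq).1 h with h1 | h1
      · have h2 := hq.dvd_of_dvd_pow (hq.dvd_of_dvd_pow h1)
        rw [hf2] at h2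
        have h3 := hq.dvd_of_dvd_pow h2
        rw [(Nat.prime_dvd_prime_iff_eq hq hp.out).1 h3]
        exact hpG
      · exact h1
  · intro r s hr hs hrs
    refine order_iff (p := p) ?_ hNp hp.out hr hs hrs
    intro s' hs' hs'p g hg w hw hfix
    have : ∃ i, Multiplicative.toAdd w i ≠ 0 := by
      by_contra hcon
      push Not at hcon
      apply hw
      apply Multiplicative.toAdd.injective
      funext i
      exact hcon i
    obtain ⟨i, hi⟩ := this
    refine hM s' hs' hs'p g hg _ hi ?_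
    have := congrArg (fun z : N => Multiplicative.toAdd z i) hfix
    exact this

/-- Prime-order elements in a group whose Sylow subgroup has prime order: a fixed-point-free generator. -/
theorem no_fix {G : Type*} [Group G] [Finite G] {K : Type*} [Field K] {n : ℕ}
    (ρ : G →* Matrix (Fin n) (Fin n) K) {s : ℕ} (hs : s.Prime) (hc : ¬ s ^ 2 ∣ Nat.card G)
    {x : G} (hx : orderOf x = s) (hfpf : ∀ u : Fin n → K, ρ x *ᵥ u = u → u = 0)
    {g : G} (hg : orderOf g = s) (v : Fin n → K) (hv : ρ g *ᵥ v = v) : v = 0 := by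
  classical
  haveI : Fact s.Prime := ⟨hs⟩
  have hdvd : s ∣ Nat.card G := by
    rw [← hx]
    exact orderOf_dvd_natCard x
  have hfac : (Nat.card G).factorization s = 1 := by
    have h0 : Nat.card G ≠ 0 := Nat.card_pos.ne'
    have h1 : 1 ≤ (Nat.card G).factorization s := (hs.dvd_iff_one_le_factorization h0).1 hdvd
    have h2 : ¬ 2 ≤ (Nat.card G).factorization s := by
      intro h
      apply hc
      exact (hs.pow_dvd_iff_le_factorization h0).2 h
    omega
  have hX : Nat.card (Subgroup.zpowers x) = s ^ (Nat.card G).factorization s := by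
    rw [Nat.card_zpowers, hx, hfac, pow_one]
  have hY : Nat.card (Subgroup.zpowers g) = s ^ (Nat.card G).factorization s := by
    rw [Nat.card_zpowers, hg, hfac, pow_one]
  let P : Sylow s G := Sylow.ofCard _ hX
  let Q : Sylow s G := Sylow.ofCard _ hY
  obtain ⟨c, hc'⟩ := MulAction.exists_smul_eq G P Q
  have hmem : c * x * c⁻¹ ∈ Subgroup.zpowers g := by
    have h1 : c * x * c⁻¹ ∈ (c • P : Sylow s G) := by
      rw [Sylow.smul_def]
      change _ ∈ Subgroup.map _ _
      refine Subgroup.mem_map.2 ⟨x, Subgroup.mem_zpowers x, rfl⟩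
    rw [hc'] at h1
    exact h1
  obtain ⟨i, hi⟩ := Subgroup.mem_zpowers_iff.1 hmem
  -- fixed points of `g` are fixed by its powers
  have hpw : ∀ m : ℕ, ρ (g ^ m) *ᵥ v = v := by
    intro m
    induction m with
    | zero => simp
    | succ m ih => rw [pow_succ, map_mul, ← mulVec_mulVec, hv, ih]
  have hzp : ρ (g ^ i) *ᵥ v = v := by
    have hfin : IsOfFinOrder g := isOfFinOrder_of_finite g
    obtain ⟨m, hm⟩ := (hfin.mem_powers_iff_mem_zpowers (y := g ^ i)).2 (Subgroup.zpow_mem_zpowers g i)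
    rw [← hm]
    exact hpw m
  have hc1 : ρ c * ρ c⁻¹ = 1 := by rw [← map_mul]; simp
  have hc2 : ρ c⁻¹ * ρ c = 1 := by rw [← map_mul]; simp
  have hu : ρ x *ᵥ (ρ c⁻¹ *ᵥ v) = ρ c⁻¹ *ᵥ v := by
    have e : x = c⁻¹ * (g ^ i) * c := by
      rw [hi]
      group
    have e2 : ρ x *ᵥ (ρ c⁻¹ *ᵥ v) = ρ c⁻¹ *ᵥ (ρ (g ^ i) *ᵥ (ρ c *ᵥ (ρ c⁻¹ *ᵥ v))) := by
      conv_lhs => rw [e]
      simp only [map_mul, mulVec_mulVec, Matrix.mul_assoc]
    have hcv : ρ c *ᵥ (ρ c⁻¹ *ᵥ v) = v := by
      rw [mulVec_mulVec, hc1, one_mulVec]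
    rw [e2, hcv, hzp]
  have h0 := hfpf _ hu
  have : v = ρ c *ᵥ (ρ c⁻¹ *ᵥ v) := by
    rw [mulVec_mulVec, hc1, one_mulVec]
  rw [this, h0, mulVec_zero]

theorem order6 {G : Type*} [Monoid G] {x : G} (h : x ^ 6 = 1) (h2 : x ^ 2 ≠ 1) (h3 : x ^ 3 ≠ 1) : orderOf x = 6 := by
  apply orderOf_eq_of_pow_and_pow_div_prime (by norm_num) h
  intro q hq hd
  have : q ∣ 2 * 3 := hd
  rcases (Nat.Prime.dvd_mul hq).1 this with h' | h'
  · rw [(Nat.prime_dvd_prime_iff_eq hq Nat.prime_two).1 h']
    exact h3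
  · rw [(Nat.prime_dvd_prime_iff_eq hq Nat.prime_three).1 h']
    exact h2

theorem order10 {G : Type*} [Monoid G] {x : G} (h : x ^ 10 = 1) (h2 : x ^ 2 ≠ 1) (h5 : x ^ 5 ≠ 1) : orderOf x = 10 := by
  apply orderOf_eq_of_pow_and_pow_div_prime (by norm_num) h
  intro q hq hd
  have : q ∣ 2 * 5 := hd
  rcases (Nat.Prime.dvd_mul hq).1 this with h' | h'
  · rw [(Nat.prime_dvd_prime_iff_eq hq Nat.prime_two).1 h']
    exact h5
  · rw [(Nat.prime_dvd_prime_iff_eq hq Nat.prime_five).1 h']
    exact h2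

end Cfsg.Agent.Lib.H14.PGUnb
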