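/-
The natural six-dimensional representation of G₂(4) over the field with four elements.
-/
import Cfsg.Agent.Lib.H14.PGUnb
import Cfsg.Agent.Lib.ToddCox.G24O.Main
import Cfsg.Agent.Lib.ToddCox.F4
import Cfsg.Agent.Lib.ToddCox.CentQuot
import Cfsg.Prelude.Def_ChevG2
import Cfsg.Agent.S1059
import Cfsg.Agent.Lib.Chev.Sub.Fix

set_option autoImplicit false
set_option maxRecDepth 100000
set_option maxHeartbeats 1000000
set_option linter.unusedVariables false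

namespace Cfsg.Agent.Lib.H14.G24Rep

open Cfsg Cfsg.Spor Cfsg.Agent.Lib.ToddCox
open Cfsg.Lie

abbrev QG : Type := PresentedGroup (coxRelators OPG24.edges ∪ {r | r ∈ OPG24.extra})

theorem card_QG : Nat.card QG = 251596800 := G24O.main.2

/-! The matrices. -/

abbrev IdxG : Type := chevG2.Idx
abbrev MG : Type := Matrix IdxG IdxG F4

def ordG : IdxG → ℕ
  | .inl i => i.1
  | .inr u => 2 + u.1

def mkM (A : List (List F4)) : MG := Matrix.of fun i j => (A.getD (ordG i) []).getD (ordG j) F4.o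

def xM (r : Fin chevG2.nroots) (t : F4) : MG := chevG2.xMat F4 r t

def ma : MG := mkM [[.l, .o, .v, .v, .o, .l, .o, .o, .o, .v, .v, .o, .l, .o], [.l, .l, .v, .o, .o, .o, .o, .o, .o, .v, .o, .o, .o, .o], [.o, .o, .o, .l, .v, .w, .o, .l, .o, .o, .o, .o, .o, .o], [.o, .l, .l, .v, .l, .l, .w, .w, .l, .v, .v, .w, .l, .o], [.o, .o, .o, .l, .w, .w, .o, .v, .w, .o, .l, .v, .w, .o], [.o, .v, .o, .w, .l, .v, .l, .w, .v, .w, .w, .l, .v, .o], [.v, .v, .w, .o, .l, .l, .o, .l, .o, .w, .w, .o, .v, .o], [.o, .o, .o, .v, .w, .l, .o, .v, .l, .o, .v, .w, .l, .o], [.o, .o, .l, .w, .v, .w, .l, .v, .v, .l, .w, .v, .w, .l], [.o, .o, .o, .o, .v, .o, .o, .l, .o, .o, .l, .o, .w, .o], [.o, .l, .v, .v, .l, .l, .o, .w, .l, .l, .v, .w, .l, .w], [.o, .o, .l, .l, .v, .l, .v, .v, .w, .l, .l, .w, .l, .v], [.o, .v, .w, .w, .l, .v, .o, .w, .v, .o, .w, .l, .v, .l], [.v, .v, .w, .w, .l, .v,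 .o, .l, .o, .w, .o, .o, .l, .o]]
def mb : MG := mkM [[.l, .o, .o, .o, .o, .o, .o, .o, .o, .o, .o, .o, .l, .v], [.l, .l, .o, .o, .o, .o, .o, .o, .o, .o, .o, .o, .o, .v], [.v, .v, .o, .v, .o, .o, .o, .o, .w, .o, .o, .o, .v, .w], [.o, .l, .w, .o, .o, .o, .o, .w, .o, .o, .o, .o, .l, .v], [.o, .o, .o, .o, .l, .o, .o, .o, .o, .l, .v, .o, .o, .o], [.o, .o, .o, .o, .o, .o, .v, .o, .o, .o, .o, .v, .o, .o], [.o, .o, .o, .o, .o, .w, .o, .o, .o, .o, .o, .l, .o, .o], [.o, .o, .o, .o, .o, .o, .o, .o, .w, .o, .o, .o, .o, .w], [.o, .o, .o, .o, .o, .o, .o, .v, .o, .o, .o, .o, .w, .o], [.o, .o, .o, .o, .o, .o, .o, .o, .o, .o, .v, .o, .o, .o], [.o, .o, .o, .o, .o, .o, .o, .o, .o, .w, .o, .o, .o, .o], [.o, .o, .o, .o, .o, .o, .o, .o, .o, .o, .o, .l, .o, .o], [.o, .o, .o, .o, .o, .o, .o, .o, .o, .o, .o, .o, .o, .v], [.o, .o, .o, .o, .o, .o, .o, .o, .o, .o, .o, .o, .w, .o]]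
def mc : MG := mkM [[.l, .o, .l, .l, .o, .w, .o, .o, .o, .o, .o, .o, .o, .o], [.o, .l, .o, .l, .v, .w, .o, .l, .o, .o, .o, .o, .o, .o], [.o, .o, .l, .o, .o, .o, .o, .o, .o, .o, .o, .o, .o, .o], [.o, .o, .l, .l, .o, .o, .o, .o, .o, .o, .o, .o, .o, .o], [.o, .o, .w, .o, .l, .o, .o, .o, .o, .o, .o, .o, .o, .o], [.o, .o, .v, .o, .o, .l, .o, .o, .o, .o, .o, .o, .o, .o], [.o, .o, .o, .v, .o, .l, .l, .o, .o, .o, .o, .o, .o, .o], [.o, .o, .l, .o, .o, .o, .o, .l, .o, .o, .o, .o, .o, .o], [.l, .o, .l, .o, .v, .w, .w, .l, .l, .o, .o, .o, .o, .o], [.o, .o, .o, .o, .l, .o, .o, .w, .o, .l, .o, .o, .o, .o], [.w, .w, .w, .w, .o, .v, .o, .w, .o, .l, .l, .o, .o, .o], [.v, .o, .v, .v, .w, .o, .l, .v, .o, .o, .o, .l, .o, .o], [.l, .l, .l, .l, .v, .w, .o, .o, .o, .v, .o, .o, .l, .o], [.o, .l, .l, .l, .v, .w, .o, .l, .l, .o, .v, .w, .l, .l]]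
def md : MG := mkM [[.v, .v, .o, .v, .w, .w, .w, .l, .w, .l, .l, .o, .w, .w], [.w, .v, .o, .v, .w, .w, .o, .l, .l, .l, .v, .v, .o, .v], [.v, .w, .v, .l, .l, .v, .v, .l, .v, .l, .l, .o, .w, .w], [.o, .w, .o, .w, .l, .v, .v, .w, .o, .l, .l, .o, .w, .w], [.v, .o, .w, .w, .v, .o, .o, .v, .v, .v, .v, .o, .o, .o], [.v, .l, .o, .v, .w, .o, .v, .o, .l, .v, .v, .v, .l, .l], [.l, .l, .l, .w, .w, .l, .w, .w, .v, .v, .v, .v, .l, .l], [.l, .w, .w, .l, .v, .w, .o, .v, .w, .v, .l, .v, .o, .v], [.l, .l, .v, .v, .l, .o, .w, .l, .v, .w, .o, .v, .w, .l], [.o, .w, .l, .o, .w, .o, .o, .w, .o, .w, .v, .o, .v, .v], [.w, .w, .o, .l, .v, .o, .o, .o, .w, .l, .o, .o, .v, .v], [.w, .w, .v, .w, .l, .v, .w, .l, .v, .w, .w, .v, .l, .l], [.v, .v, .o, .v, .w, .l, .o, .v, .l, .w, .v, .w, .w, .l], [.o, .o, .w, .o, .v, .o, .l, .v, .w, .l, .o, .w, .o, .v]]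
def me : MG := mkM [[.v, .o, .l, .o, .l, .w, .w, .o, .w, .w, .l, .v, .v, .l], [.w, .v, .o, .v, .o, .w, .l, .o, .v, .o, .w, .v, .v, .l], [.l, .l, .l, .o, .v, .w, .w, .l, .l, .o, .v, .w, .l, .o], [.v, .v, .v, .o, .w, .l, .l, .w, .v, .v, .w, .v, .v, .l], [.v, .v, .l, .o, .v, .l, .w, .v, .l, .l, .w, .l, .v, .w], [.w, .l, .l, .o, .l, .w, .w, .w, .w, .o, .l, .w, .w, .v], [.o, .w, .w, .o, .o, .v, .v, .l, .o, .l, .o, .l, .v, .o], [.v, .w, .w, .l, .w, .l, .l, .v, .w, .o, .w, .l, .v, .l], [.o, .o, .l, .w, .v, .w, .l, .v, .v, .l, .w, .v, .w, .l], [.l, .w, .v, .l, .l, .w, .o, .l, .l, .v, .w, .w, .l, .w], [.w, .w, .v, .v, .w, .o, .w, .w, .l, .v, .w, .l, .l, .w], [.o, .l, .w, .l, .w, .w, .l, .v, .w, .o, .l, .v, .w, .v], [.v, .o, .l, .o, .l, .v, .l, .w, .l, .o, .o, .o, .o, .o], [.o, .l, .o, .l, .w, .v, .v, .l, .w, .w, .l, .l, .v, .l]]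
def mf : MG := mkM [[.l, .o, .w, .w, .o, .v, .o, .o, .o, .w, .w, .o, .v, .o], [.w, .l, .l, .v, .w, .l, .o, .w, .l, .l, .v, .w, .l, .o], [.o, .o, .w, .v, .w, .l, .o, .v, .o, .o, .o, .o, .o, .o], [.l, .v, .o, .v, .l, .w, .l, .v, .w, .l, .l, .v, .w, .o], [.w, .o, .l, .w, .o, .v, .o, .l, .v, .l, .w, .l, .v, .o], [.v, .w, .w, .v, .w, .v, .v, .o, .l, .v, .v, .w, .l, .o], [.l, .w, .v, .w, .w, .o, .w, .w, .v, .v, .v, .l, .l, .o], [.l, .o, .v, .l, .v, .w, .o, .w, .w, .v, .l, .v, .w, .o], [.w, .o, .w, .o, .l, .v, .v, .l, .w, .w, .o, .l, .v, .v], [.o, .o, .o, .o, .w, .o, .o, .v, .o, .w, .v, .o, .l, .o], [.l, .v, .l, .l, .l, .w, .o, .v, .w, .o, .v, .v, .w, .l], [.w, .o, .w, .w, .l, .l, .w, .l, .v, .w, .w, .o, .l, .w], [.v, .w, .v, .v, .w, .l, .o, .o, .l, .w, .v, .w, .v, .v], [.l, .w, .v, .v, .w, .l, .o, .w, .v, .v, .w, .l, .o, .w]]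

def mT : OPG24.Gen → MG
  | .a => ma
  | .b => mb
  | .c => mc
  | .d => md
  | .e => me
  | .f => mf

theorem mT_sq : ∀ a, mT a * mT a = 1 := by
  intro a
  cases a <;> decide +kernel

def TG (a : OPG24.Gen) : GL IdxG F4 := ⟨mT a, mT a, mT_sq a, mT_sq a⟩

def xl0 : MG := mkM [[.l, .o, .o, .o, .o, .o, .o, .o, .o, .l, .o, .o, .o, .o], [.o, .l, .o, .o, .o, .o, .o, .o, .o, .o, .o, .o, .o, .o], [.o, .o, .l, .o, .o, .o, .o, .o, .o, .o, .o, .o, .o, .o], [.o, .o, .o, .l, .l, .l, .o, .l, .o, .o, .o, .o, .o, .o], [.o, .o, .o, .o, .l, .o, .o, .l, .o, .o, .o, .o, .o, .o], [.o, .o, .o, .o, .o, .l, .o, .l, .o, .o, .o, .o, .o, .o], [.o, .l, .o, .o, .o, .o, .l, .o, .o, .l, .o, .o, .o, .o], [.o, .o, .o, .o, .o, .o, .o, .l, .o, .o, .o, .o, .o, .o], [.o, .o, .o, .o, .o, .o, .o, .o, .l, .o, .l, .l, .l, .o], [.o, .o, .o, .o, .o, .o, .o, .o, .o, .l, .o, .o, .o, .o], [.o, .o,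 .o, .o, .o, .o, .o, .o, .o, .o, .l, .o, .l, .o], [.o, .o, .o, .o, .o, .o, .o, .o, .o, .o, .o, .l, .l, .o], [.o, .o, .o, .o, .o, .o, .o, .o, .o, .o, .o, .o, .l, .o], [.o, .o, .o, .o, .o, .o, .o, .o, .o, .o, .o, .o, .o, .l]]
theorem xl0_eq : xM ⟨4, by decide⟩ .l = xl0 := by decide +kernel
theorem xl0_sq : xl0 * xl0 = 1 := by decide +kernel
def xG0 : GL IdxG F4 := ⟨xl0, xl0, xl0_sq, xl0_sq⟩
theorem xG0_mem : xG0 ∈ chevG2.group F4 := Subgroup.subset_closure ⟨⟨4, by decide⟩, .l, xl0_eq.symm⟩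

def xl1 : MG := mkM [[.l, .o, .o, .o, .o, .o, .w, .o, .o, .o, .o, .o, .o, .o], [.o, .l, .o, .o, .o, .o, .o, .o, .o, .o, .o, .o, .o, .o], [.o, .o, .l, .o, .o, .o, .o, .o, .o, .o, .o, .o, .o, .o], [.o, .o, .o, .l, .o, .o, .o, .o, .o, .o, .o, .o, .o, .o], [.o, .o, .o, .w, .l, .o, .o, .o, .o, .o, .o, .o, .o, .o], [.o, .o, .o, .v, .o, .l, .o, .o, .o, .o, .o, .o, .o, .o], [.o, .o, .o, .o, .o, .o, .l, .o, .o, .o, .o, .o, .o, .o], [.o, .o, .o, .l, .v, .w, .o, .l, .o, .o, .o, .o, .o, .o], [.o, .o, .o, .o, .o, .o, .o, .o, .l, .o, .o, .o, .o, .o], [.o, .w, .o, .o, .o, .o, .v, .o, .o, .l, .o, .o, .o, .o], [.o, .o, .o, .o, .o, .o, .o, .o, .w, .o, .l, .o, .o, .o], [.o, .o, .o, .o, .o, .o, .o, .o, .v, .o, .o, .l, .o, .o], [.o, .o, .o, .o, .o, .o, .o, .o, .l, .o, .v, .w, .l, .o], [.o, .o, .o, .o, .o, .o, .o, .o, .o, .o, .o, .o, .o, .l]]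
theorem xl1_eq : xM ⟨7, by decide⟩ .w = xl1 := by decide +kernel
theorem xl1_sq : xl1 * xl1 = 1 := by decide +kernel
def xG1 : GL IdxG F4 := ⟨xl1, xl1, xl1_sq, xl1_sq⟩
theorem xG1_mem : xG1 ∈ chevG2.group F4 := Subgroup.subset_closure ⟨⟨7, by decide⟩, .w, xl1_eq.symm⟩

def xl2 : MG := mkM [[.l, .o, .o, .o, .o, .o, .o, .o, .o, .o, .o, .o, .o, .o], [.o, .l, .o, .o, .o, .o, .o, .o, .l, .o, .o, .o, .o, .o], [.o, .o, .l, .l, .o, .o, .o, .o, .o, .o, .o, .o, .o, .o], [.o, .o, .o, .l, .o, .o, .o, .o, .o, .o, .o, .o, .o, .o], [.o, .o, .o, .o, .l, .o, .o, .o, .o, .o, .o, .o, .o, .o], [.o, .o, .o, .o, .o, .l, .l, .o, .o, .o, .o, .o, .o, .o], [.o, .o, .o, .o, .o, .o, .l, .o, .o, .o, .o, .o, .o, .o], [.l, .o, .o, .o, .o, .o, .o, .l, .l, .o, .o, .o, .o, .o], [.o, .o, .o, .o, .o, .o, .o, .o, .l, .o, .o, .o, .o, .o], [.o, .o, .o, .o, .o, .o, .o, .o, .o, .l, .l, .o, .o,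 .o], [.o, .o, .o, .o, .o, .o, .o, .o, .o, .o, .l, .o, .o, .o], [.o, .o, .o, .o, .o, .o, .o, .o, .o, .o, .o, .l, .o, .o], [.o, .o, .o, .o, .o, .o, .o, .o, .o, .o, .o, .o, .l, .l], [.o, .o, .o, .o, .o, .o, .o, .o, .o, .o, .o, .o, .o, .l]]
theorem xl2_eq : xM ⟨5, by decide⟩ .l = xl2 := by decide +kernel
theorem xl2_sq : xl2 * xl2 = 1 := by decide +kernel
def xG2 : GL IdxG F4 := ⟨xl2, xl2, xl2_sq, xl2_sq⟩
theorem xG2_mem : xG2 ∈ chevG2.group F4 := Subgroup.subset_closure ⟨⟨5, by decide⟩, .l, xl2_eq.symm⟩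

def xl3 : MG := mkM [[.l, .o, .o, .o, .o, .o, .o, .o, .o, .o, .o, .o, .o, .o], [.o, .l, .o, .o, .o, .o, .o, .w, .o, .o, .o, .o, .o, .o], [.o, .o, .l, .o, .o, .o, .o, .o, .o, .o, .o, .o, .o, .o], [.o, .o, .w, .l, .o, .o, .o, .o, .o, .o, .o, .o, .o, .o], [.o, .o, .o, .o, .l, .o, .o, .o, .o, .o, .o, .o, .o, .o], [.o, .o, .o, .o, .o, .l, .o, .o, .o, .o, .o, .o, .o, .o], [.o, .o, .o, .o, .o, .w, .l, .o, .o, .o, .o, .o, .o, .o], [.o, .o, .o, .o, .o, .o, .o, .l, .o, .o, .o, .o, .o, .o], [.w, .o, .o, .o, .o, .o, .o, .v, .l, .o, .o, .o, .o, .o], [.o, .o, .o, .o, .o, .o, .o, .o, .o, .l, .o, .o, .o, .o], [.o, .o, .o, .o, .o, .o, .o, .o, .o, .w, .l, .o, .o, .o], [.o, .o, .o, .o, .o, .o, .o, .o, .o, .o, .o, .l, .o, .o], [.o, .o, .o, .o, .o, .o, .o, .o, .o, .o, .o, .o, .l, .o], [.o, .o, .o, .o, .o, .o, .o, .o, .o, .o, .o, .o, .w, .l]]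
theorem xl3_eq : xM ⟨6, by decide⟩ .w = xl3 := by decide +kernel
theorem xl3_sq : xl3 * xl3 = 1 := by decide +kernel
def xG3 : GL IdxG F4 := ⟨xl3, xl3, xl3_sq, xl3_sq⟩
theorem xG3_mem : xG3 ∈ chevG2.group F4 := Subgroup.subset_closure ⟨⟨6, by decide⟩, .w, xl3_eq.symm⟩

def xl4 : MG := mkM [[.l, .o, .l, .o, .o, .o, .o, .o, .o, .o, .o, .o, .o, .o], [.o, .l, .o, .o, .o, .o, .o, .o, .o, .o, .o, .o, .o, .o], [.o, .o, .l, .o, .o, .o, .o, .o, .o, .o, .o, .o, .o, .o], [.o, .o, .o, .l, .o, .o, .o, .o, .o, .o, .o, .o, .o, .o], [.o, .o, .o, .o, .l, .o, .o, .o, .o, .o, .o, .o, .o, .o], [.o, .o, .o, .o, .o, .l, .o, .o, .o, .o, .o, .o, .o, .o], [.o, .o, .o, .o, .o, .o, .l, .o, .o, .o, .o, .o, .o, .o], [.o, .o, .o, .o, .o, .o, .o, .l, .o, .o, .o, .o, .o, .o], [.o, .o, .o, .l, .o, .o, .o, .o, .l, .o, .o, .o, .o, .o], [.o, .o, .o, .o, .o, .o, .o, .o, .o, .l, .o, .o, .o,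 .o], [.o, .o, .o, .o, .l, .o, .o, .o, .o, .o, .l, .o, .o, .o], [.o, .o, .o, .o, .o, .l, .o, .o, .o, .o, .o, .l, .o, .o], [.o, .o, .o, .o, .o, .o, .o, .l, .o, .o, .o, .o, .l, .o], [.o, .l, .l, .o, .o, .o, .o, .o, .o, .o, .o, .o, .o, .l]]
theorem xl4_eq : xM ⟨11, by decide⟩ .l = xl4 := by decide +kernel
theorem xl4_sq : xl4 * xl4 = 1 := by decide +kernel
def xG4 : GL IdxG F4 := ⟨xl4, xl4, xl4_sq, xl4_sq⟩
theorem xG4_mem : xG4 ∈ chevG2.group F4 := Subgroup.subset_closure ⟨⟨11, by decide⟩, .l, xl4_eq.symm⟩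

def xl5 : MG := mkM [[.l, .o, .o, .o, .o, .o, .o, .o, .o, .o, .o, .o, .o, .o], [.o, .l, .o, .o, .l, .o, .o, .o, .o, .o, .o, .o, .o, .o], [.o, .o, .l, .o, .o, .o, .o, .o, .o, .o, .o, .o, .o, .o], [.o, .o, .o, .l, .o, .o, .o, .o, .o, .o, .o, .o, .o, .o], [.o, .o, .o, .o, .l, .o, .o, .o, .o, .o, .o, .o, .o, .o], [.o, .o, .l, .o, .o, .l, .o, .o, .o, .o, .o, .o, .o, .o], [.o, .o, .o, .l, .o, .o, .l, .o, .o, .o, .o, .o, .o, .o], [.o, .o, .o, .o, .o, .o, .o, .l, .o, .o, .o, .o, .o, .o], [.o, .o, .o, .o, .o, .o, .o, .o, .l, .o, .o, .o, .o, .o], [.o, .o, .l, .o, .o, .o, .o, .o, .o, .l, .o, .o, .o, .o], [.o, .o, .o, .l, .o, .o, .o, .o, .o, .o, .l, .o, .o, .o], [.l, .o, .o, .o, .l, .o, .o, .o, .o, .o, .o, .l, .o, .o], [.o, .o, .l, .o, .o, .l, .o, .o, .o, .l, .o, .o, .l, .o], [.o, .o, .o, .l, .o, .o, .l, .o, .o, .o, .l, .o, .o, .l]]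
theorem xl5_eq : xM ⟨9, by decide⟩ .l = xl5 := by decide +kernel
theorem xl5_sq : xl5 * xl5 = 1 := by decide +kernel
def xG5 : GL IdxG F4 := ⟨xl5, xl5, xl5_sq, xl5_sq⟩
theorem xG5_mem : xG5 ∈ chevG2.group F4 := Subgroup.subset_closure ⟨⟨9, by decide⟩, .l, xl5_eq.symm⟩

theorem Ta_word : xl0 * xl1 * xl0 * xl2 * xl1 * xl0 * xl3 * xl2 * xl4 * xl2 * xl3 * xl0 * xl1 * xl2 * xl0 * xl1 * xl0 = ma := by decide +kernel
theorem Ta_mem : TG .a ∈ chevG2.group F4 := by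
  have h : TG .a = xG0 * xG1 * xG0 * xG2 * xG1 * xG0 * xG3 * xG2 * xG4 * xG2 * xG3 * xG0 * xG1 * xG2 * xG0 * xG1 * xG0 := Units.ext Ta_word.symm
  rw [h]
  exact (Subgroup.mul_mem _ (Subgroup.mul_mem _ (Subgroup.mul_mem _ (Subgroup.mul_mem _ (Subgroup.mul_mem _ (Subgroup.mul_mem _ (Subgroup.mul_mem _ (Subgroup.mul_mem _ (Subgroup.mul_mem _ (Subgroup.mul_mem _ (Subgroup.mul_mem _ (Subgroup.mul_mem _ (Subgroup.mul_mem _ (Subgroup.mul_mem _ (Subgroup.mul_mem _ (Subgroup.mul_mem _ xG0_mem xG1_mem) xG0_mem) xG2_mem) xG1_mem) xG0_mem) xG3_mem) xG2_mem) xG4_mem) xG2_mem) xG3_mem) xG0_mem) xG1_mem) xG2_mem) xG0_mem) xG1_mem) xG0_mem)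

theorem Tb_word : xl0 * xl3 * xl2 * xl0 * xl3 * xl2 * xl1 * xl3 * xl2 * xl0 * xl3 * xl2 * xl4 * xl2 * xl3 * xl0 * xl2 * xl3 * xl1 * xl2 * xl3 * xl0 * xl2 * xl3 * xl0 = mb := by decide +kernel
theorem Tb_mem : TG .b ∈ chevG2.group F4 := by
  have h : TG .b = xG0 * xG3 * xG2 * xG0 * xG3 * xG2 * xG1 * xG3 * xG2 * xG0 * xG3 * xG2 * xG4 * xG2 * xG3 * xG0 * xG2 * xG3 * xG1 * xG2 * xG3 * xG0 * xG2 * xG3 * xG0 := Units.ext Tb_word.symm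
  rw [h]
  exact (Subgroup.mul_mem _ (Subgroup.mul_mem _ (Subgroup.mul_mem _ (Subgroup.mul_mem _ (Subgroup.mul_mem _ (Subgroup.mul_mem _ (Subgroup.mul_mem _ (Subgroup.mul_mem _ (Subgroup.mul_mem _ (Subgroup.mul_mem _ (Subgroup.mul_mem _ (Subgroup.mul_mem _ (Subgroup.mul_mem _ (Subgroup.mul_mem _ (Subgroup.mul_mem _ (Subgroup.mul_mem _ (Subgroup.mul_mem _ (Subgroup.mul_mem _ (Subgroup.mul_mem _ (Subgroup.mul_mem _ (Subgroup.mul_mem _ (Subgroup.mul_mem _ (Subgroup.mul_mem _ (Subgroup.mul_mem _ xG0_mem xG3_mem) xG2_mem) xG0_mem) xG3_mem) xG2_mem) xG1_mem) xG3_mem) xG2_mem) xG0_mem) xG3_mem) xG2_mem) xG4_mem) xG2_mem) xG3_mem) xG0_mem) xG2_mem) xG3_mem) xG1_mem) xG2_mem) xG3_mem) xG0_mem) xG2_mem) xG3_mem) xG0_mem)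

theorem Tc_word : xl0 * xl1 * xl0 * xl2 * xl4 * xl2 * xl0 * xl1 * xl0 = mc := by decide +kernel
theorem Tc_mem : TG .c ∈ chevG2.group F4 := by
  have h : TG .c = xG0 * xG1 * xG0 * xG2 * xG4 * xG2 * xG0 * xG1 * xG0 := Units.ext Tc_word.symm
  rw [h]
  exact (Subgroup.mul_mem _ (Subgroup.mul_mem _ (Subgroup.mul_mem _ (Subgroup.mul_mem _ (Subgroup.mul_mem _ (Subgroup.mul_mem _ (Subgroup.mul_mem _ (Subgroup.mul_mem _ xG0_mem xG1_mem) xG0_mem) xG2_mem) xG4_mem) xG2_mem) xG0_mem) xG1_mem) xG0_mem)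

theorem Td_word : xl3 * xl1 * xl3 * xl2 * xl0 * xl3 * xl2 * xl3 * xl2 * xl0 * xl5 * xl0 * xl2 * xl3 * xl2 * xl3 * xl0 * xl2 * xl3 * xl1 * xl3 = md := by decide +kernel
theorem Td_mem : TG .d ∈ chevG2.group F4 := by
  have h : TG .d = xG3 * xG1 * xG3 * xG2 * xG0 * xG3 * xG2 * xG3 * xG2 * xG0 * xG5 * xG0 * xG2 * xG3 * xG2 * xG3 * xG0 * xG2 * xG3 * xG1 * xG3 := Units.ext Td_word.symm
  rw [h]
  exact (Subgroup.mul_mem _ (Subgroup.mul_mem _ (Subgroup.mul_mem _ (Subgroup.mul_mem _ (Subgroup.mul_mem _ (Subgroup.mul_mem _ (Subgroup.mul_mem _ (Subgroup.mul_mem _ (Subgroup.mul_mem _ (Subgroup.mul_mem _ (Subgroup.mul_mem _ (Subgroup.mul_mem _ (Subgroup.mul_mem _ (Subgroup.mul_mem _ (Subgroup.mul_mem _ (Subgroup.mul_mem _ (Subgroup.mul_mem _ (Subgroup.mul_mem _ (Subgroup.mul_mem _ (Subgroup.mul_mem _ xG3_mem xG1_mem) xG3_mem) xG2_mem) xG0_mem) xG3_mem) xG2_mem) xG3_mem)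 xG2_mem) xG0_mem) xG5_mem) xG0_mem) xG2_mem) xG3_mem) xG2_mem) xG3_mem) xG0_mem) xG2_mem) xG3_mem) xG1_mem) xG3_mem)

theorem Te_word : xl0 * xl1 * xl0 * xl2 * xl1 * xl0 * xl2 * xl3 * xl1 * xl0 * xl2 * xl3 * xl1 * xl5 * xl1 * xl3 * xl2 * xl0 * xl1 * xl3 * xl2 * xl0 * xl1 * xl2 * xl0 * xl1 * xl0 = me := by decide +kernel
theorem Te_mem : TG .e ∈ chevG2.group F4 := by
  have h : TG .e = xG0 * xG1 * xG0 * xG2 * xG1 * xG0 * xG2 * xG3 * xG1 * xG0 * xG2 * xG3 * xG1 * xG5 * xG1 * xG3 * xG2 * xG0 * xG1 * xG3 * xG2 * xG0 * xG1 * xG2 * xG0 * xG1 * xG0 := Units.ext Te_word.symm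
  rw [h]
  exact (Subgroup.mul_mem _ (Subgroup.mul_mem _ (Subgroup.mul_mem _ (Subgroup.mul_mem _ (Subgroup.mul_mem _ (Subgroup.mul_mem _ (Subgroup.mul_mem _ (Subgroup.mul_mem _ (Subgroup.mul_mem _ (Subgroup.mul_mem _ (Subgroup.mul_mem _ (Subgroup.mul_mem _ (Subgroup.mul_mem _ (Subgroup.mul_mem _ (Subgroup.mul_mem _ (Subgroup.mul_mem _ (Subgroup.mul_mem _ (Subgroup.mul_mem _ (Subgroup.mul_mem _ (Subgroup.mul_mem _ (Subgroup.mul_mem _ (Subgroup.mul_mem _ (Subgroup.mul_mem _ (Subgroup.mul_mem _ (Subgroup.mul_mem _ (Subgroup.mul_mem _ xG0_mem xG1_mem) xG0_mem) xG2_mem) xG1_mem) xG0_mem) xG2_mem) xG3_mem) xG1_mem) xG0_mem) xG2_mem) xG3_mem) xG1_mem) xG5_mem) xG1_mem) xG3_mem) xG2_mem) xG0_mem) xG1_mem) xG3_mem) xG2_mem) xG0_mem) xG1_mem) xG2_mem) xG0_mem) xG1_mem) xG0_mem)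

theorem Tf_word : xl1 * xl3 * xl2 * xl0 * xl3 * xl2 * xl0 * xl1 * xl3 * xl2 * xl3 * xl2 * xl0 * xl2 * xl4 * xl2 * xl0 * xl2 * xl3 * xl2 * xl3 * xl1 * xl0 * xl2 * xl3 * xl0 * xl2 * xl3 * xl1 = mf := by decide +kernel
theorem Tf_mem : TG .f ∈ chevG2.group F4 := by
  have h : TG .f = xG1 * xG3 * xG2 * xG0 * xG3 * xG2 * xG0 * xG1 * xG3 * xG2 * xG3 * xG2 * xG0 * xG2 * xG4 * xG2 * xG0 * xG2 * xG3 * xG2 * xG3 * xG1 * xG0 * xG2 * xG3 * xG0 * xG2 * xG3 * xG1 := Units.ext Tf_word.symm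
  rw [h]
  exact (Subgroup.mul_mem _ (Subgroup.mul_mem _ (Subgroup.mul_mem _ (Subgroup.mul_mem _ (Subgroup.mul_mem _ (Subgroup.mul_mem _ (Subgroup.mul_mem _ (Subgroup.mul_mem _ (Subgroup.mul_mem _ (Subgroup.mul_mem _ (Subgroup.mul_mem _ (Subgroup.mul_mem _ (Subgroup.mul_mem _ (Subgroup.mul_mem _ (Subgroup.mul_mem _ (Subgroup.mul_mem _ (Subgroup.mul_mem _ (Subgroup.mul_mem _ (Subgroup.mul_mem _ (Subgroup.mul_mem _ (Subgroup.mul_mem _ (Subgroup.mul_mem _ (Subgroup.mul_mem _ (Subgroup.mul_mem _ (Subgroup.mul_mem _ (Subgroup.mul_mem _ (Subgroup.mul_mem _ (Subgroup.mul_mem _ xG1_mem xG3_mem) xG2_mem) xG0_mem) xG3_mem) xG2_mem) xG0_mem) xG1_mem) xG3_mem) xG2_mem) xG3_mem) xG2_mem) xG0_mem) xG2_mem) xG4_mem) xG2_mem) xG0_mem) xG2_mem) xG3_mem) xG2_mem) xG3_mem) xG1_mem) xG0_mem) xG2_mem) xG3_mem) xG0_mem) xG2_mem) xG3_mem) xG1_mem)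

theorem TG_mem : ∀ a, TG a ∈ chevG2.group F4
  | .a => Ta_mem
  | .b => Tb_mem
  | .c => Tc_mem
  | .d => Td_mem
  | .e => Te_mem
  | .f => Tf_mem

theorem T_rel : ∀ r ∈ coxList OPG24.edges ++ OPG24.extra, (FreeGroup.lift TG r).1 = 1 := by
  decide +kernel

noncomputable def χ : QG →* GL IdxG F4 :=
  presMap OPG24.edges OPG24.extra TG (fun r hr => Units.ext (T_rel r hr))

theorem χ_of (a : OPG24.Gen) : χ (PresentedGroup.of a) = TG a := presMap_of _ _ _ _ a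

theorem χ_ne : χ (PresentedGroup.of .a) ≠ 1 := by
  rw [χ_of]
  intro h
  have h1 : mT .a = 1 := congrArg Units.val h
  revert h1
  decide +kernel

theorem χ_inj : Function.Injective χ := injective_of_simple G24O.main.1 χ χ_ne

theorem χ_le : χ.range ≤ chevG2.group F4 := by
  apply range_le_of_gens
  intro a
  rw [χ_of]
  exact TG_mem a

theorem card_group : Nat.card (chevG2.group F4) = 251596800 := by
  have h := Cfsg.Agent.S1059.result (F := F4) F4.card_eq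
  rw [h]
  norm_num

theorem χ_range : χ.range = chevG2.group F4 := by
  have hf : Finite (chevG2.group F4) := Nat.finite_of_card_ne_zero (by rw [card_group]; norm_num)
  apply Subgroup.eq_of_le_of_card_ge χ_le
  rw [card_group]
  have e2 : QG ≃* χ.range := MonoidHom.ofInjective χ_inj
  rw [← Nat.card_congr e2.toEquiv, card_QG]


theorem QG_iso : Nonempty (QG ≃* chevG2.group F4) := by
  have e2 : QG ≃* χ.range := MonoidHom.ofInjective χ_inj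
  have e3 : χ.range ≃* chevG2.group F4 := MulEquiv.subgroupCongr χ_range
  exact ⟨e2.trans e3⟩

/-! The six-dimensional representation. -/

abbrev M6 : Type := Matrix (Fin 6) (Fin 6) F4

def mk6 (A : List (List F4)) : M6 := Matrix.of fun i j => (A.getD i.1 []).getD j.1 F4.o

def na : M6 := mk6 [[.l, .v, .v, .l, .o, .o], [.o, .o, .l, .w, .o, .o], [.l, .w, .o, .o, .w, .l], [.v, .w, .o, .o, .l, .v], [.v, .o, .w, .w, .o, .v], [.o, .v, .v, .l, .o, .l]]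
def nb : M6 := mk6 [[.l, .o, .o, .l, .v, .o], [.o, .o, .v, .o, .o, .v], [.o, .w, .o, .o, .o, .l], [.o, .o, .o, .o, .v, .o], [.o, .o, .o, .w, .o, .o], [.o, .o, .o, .o, .o, .l]]
def nc : M6 := mk6 [[.l, .o, .o, .o, .o, .o], [.o, .l, .o, .o, .o, .o], [.w, .l, .l, .o, .o, .o], [.l, .v, .o, .l, .o, .o], [.l, .o, .v, .l, .l, .o], [.o, .l, .l, .w, .o, .l]]
def nd : M6 := mk6 [[.v, .w, .w, .v, .v, .o], [.w, .o, .v, .v, .v, .v], [.w, .l, .w, .v, .v, .v], [.w, .l, .o, .w, .v, .w], [.v, .o, .l, .l, .o, .w], [.l, .v, .w, .w, .w, .v]]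
def ne : M6 := mk6 [[.o, .v, .o, .l, .l, .v], [.w, .l, .l, .o, .w, .l], [.l, .o, .v, .v, .o, .l], [.w, .o, .w, .v, .l, .o], [.v, .l, .o, .o, .l, .v], [.w, .v, .w, .l, .w, .o]]
def nf : M6 := mk6 [[.l, .w, .w, .v, .o, .o], [.o, .w, .v, .l, .o, .o], [.v, .l, .w, .o, .l, .v], [.w, .l, .o, .w, .v, .w], [.w, .o, .l, .l, .w, .w], [.o, .w, .w, .v, .o, .l]]

def nT : OPG24.Gen → M6
  | .a => na
  | .b => nb
  | .c => nc
  | .d => nd
  | .e => ne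
  | .f => nf

theorem nT_sq : ∀ a, nT a * nT a = 1 := by
  intro a
  cases a <;> decide +kernel

def NG (a : OPG24.Gen) : GL (Fin 6) F4 := ⟨nT a, nT a, nT_sq a, nT_sq a⟩

theorem N_rel : ∀ r ∈ coxList OPG24.edges ++ OPG24.extra, (FreeGroup.lift NG r).1 = 1 := by
  decide +kernel

noncomputable def ρG : QG →* GL (Fin 6) F4 :=
  presMap OPG24.edges OPG24.extra NG (fun r hr => Units.ext (N_rel r hr))

noncomputable def ρ6 : QG →* M6 := (Units.coeHom M6).comp ρG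

theorem ρ6_of (a : OPG24.Gen) : ρ6 (PresentedGroup.of a) = nT a := by
  change (ρG (PresentedGroup.of a)).1 = _
  rw [ρG, presMap_of]
  rfl

theorem ρG_ne : ρG (PresentedGroup.of .a) ≠ 1 := by
  intro h
  have h1 : ρ6 (PresentedGroup.of .a) = 1 := by
    change (ρG (PresentedGroup.of .a)).1 = 1
    rw [h]
    rfl
  rw [ρ6_of] at h1
  revert h1
  decide +kernel

theorem ρ6_inj : Function.Injective ρ6 := by
  intro x y h
  exact injective_of_simple G24O.main.1 ρG ρG_ne (Units.ext h)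

noncomputable def X7 : QG := PresentedGroup.of .d * PresentedGroup.of .c * PresentedGroup.of .b * PresentedGroup.of .e * PresentedGroup.of .f * PresentedGroup.of .a * PresentedGroup.of .b * PresentedGroup.of .f
def MX7 : M6 := nd * nc * nb * ne * nf * na * nb * nf
theorem X7_eq : ρ6 X7 = MX7 := by
  simp only [X7, MX7, map_mul, ρ6_of]
  rfl

noncomputable def X13 : QG := PresentedGroup.of .e * PresentedGroup.of .f * PresentedGroup.of .d * PresentedGroup.of .c * PresentedGroup.of .b * PresentedGroup.of .c * PresentedGroup.of .a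
def MX13 : M6 := ne * nf * nd * nc * nb * nc * na
theorem X13_eq : ρ6 X13 = MX13 := by
  simp only [X13, MX13, map_mul, ρ6_of]
  rfl

noncomputable def X6 : QG := PresentedGroup.of .f * PresentedGroup.of .e * PresentedGroup.of .d
def MX6 : M6 := nf * ne * nd
theorem X6_eq : ρ6 X6 = MX6 := by
  simp only [X6, MX6, map_mul, ρ6_of]
  rfl

noncomputable def X10 : QG := PresentedGroup.of .b * PresentedGroup.of .e * PresentedGroup.of .a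
def MX10 : M6 := nb * ne * na
theorem X10_eq : ρ6 X10 = MX10 := by
  simp only [X10, MX10, map_mul, ρ6_of]
  rfl

def Y7 : M6 := mk6 [[.o, .w, .o, .l, .w, .l], [.v, .v, .o, .w, .o, .w], [.v, .w, .o, .w, .w, .l], [.v, .o, .w, .l, .o, .o], [.w, .w, .o, .w, .w, .w], [.w, .w, .v, .v, .v, .l]]
def Y13 : M6 := mk6 [[.o, .v, .l, .l, .l, .w], [.v, .l, .w, .l, .w, .l], [.l, .v, .w, .o, .l, .l], [.w, .w, .w, .v, .w, .l], [.v, .v, .w, .v, .o, .v], [.l, .v, .w, .l, .v, .l]]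
theorem Y7_mul : Y7 * (MX7 - 1) = 1 := by decide +kernel
theorem Y13_mul : Y13 * (MX13 - 1) = 1 := by decide +kernel

theorem fpf_of {M Y : M6} (h : Y * (M - 1) = 1) (u : Fin 6 → F4) (hu : M.mulVec u = u) : u = 0 := by
  have h1 : (M - 1).mulVec u = 0 := by
    rw [Matrix.sub_mulVec, hu, Matrix.one_mulVec, sub_self]
  have h2 : (Y * (M - 1)).mulVec u = 0 := by
    rw [← Matrix.mulVec_mulVec, h1, Matrix.mulVec_zero]
  rw [h, Matrix.one_mulVec] at h2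
  exact h2

theorem X7_fpf : ∀ u : Fin 6 → F4, (ρ6 X7).mulVec u = u → u = 0 := by
  rw [X7_eq]
  exact fpf_of Y7_mul

theorem X13_fpf : ∀ u : Fin 6 → F4, (ρ6 X13).mulVec u = u → u = 0 := by
  rw [X13_eq]
  exact fpf_of Y13_mul

theorem pw7 : MX7 * MX7 * MX7 * MX7 * MX7 * MX7 * MX7 = 1 := by decide +kernel
theorem ne7 : MX7 ≠ 1 := by decide +kernel
theorem pw13 : MX13 * MX13 * MX13 * MX13 * MX13 * MX13 * MX13 * MX13 * MX13 * MX13 * MX13 * MX13 * MX13 = 1 := by decide +kernel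
theorem ne13 : MX13 ≠ 1 := by decide +kernel
theorem pw6 : MX6 * MX6 * MX6 * MX6 * MX6 * MX6 = 1 := by decide +kernel
theorem ne6a : MX6 * MX6 ≠ 1 := by decide +kernel
theorem ne6b : MX6 * MX6 * MX6 ≠ 1 := by decide +kernel
theorem pw10 : MX6 * MX6 = MX6 * MX6 := rfl
theorem pw10' : MX10 * MX10 * MX10 * MX10 * MX10 * MX10 * MX10 * MX10 * MX10 * MX10 = 1 := by decide +kernel
theorem ne10a : MX10 * MX10 ≠ 1 := by decide +kernel
theorem ne10b : MX10 * MX10 * MX10 * MX10 * MX10 ≠ 1 := by decide +kernel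

theorem order_X7 : orderOf X7 = 7 := by
  rw [← orderOf_injective ρ6 ρ6_inj, X7_eq]
  haveI : Fact (Nat.Prime 7) := ⟨by norm_num⟩
  apply orderOf_eq_prime
  · simpa only [pow_succ, pow_zero, one_mul] using pw7
  · exact ne7

theorem order_X13 : orderOf X13 = 13 := by
  rw [← orderOf_injective ρ6 ρ6_inj, X13_eq]
  haveI : Fact (Nat.Prime 13) := ⟨by norm_num⟩
  apply orderOf_eq_prime
  · simpa only [pow_succ, pow_zero, one_mul] using pw13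
  · exact ne13

theorem order_X6 : orderOf X6 = 6 := by
  rw [← orderOf_injective ρ6 ρ6_inj, X6_eq]
  apply Cfsg.Agent.Lib.H14.PGUnb.order6
  · simpa only [pow_succ, pow_zero, one_mul] using pw6
  · simpa only [pow_succ, pow_zero, one_mul] using ne6a
  · simpa only [pow_succ, pow_zero, one_mul] using ne6b

theorem order_X10 : orderOf X10 = 10 := by
  rw [← orderOf_injective ρ6 ρ6_inj, X10_eq]
  apply Cfsg.Agent.Lib.H14.PGUnb.order10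
  · simpa only [pow_succ, pow_zero, one_mul] using pw10'
  · simpa only [pow_succ, pow_zero, one_mul] using ne10a
  · simpa only [pow_succ, pow_zero, one_mul] using ne10b

instance : Finite QG := Nat.finite_of_card_ne_zero (by rw [card_QG]; norm_num)

instance : CharP F4 2 := CharTwo.of_one_ne_zero_of_two_eq_zero (by decide) (by decide)

theorem hM6 (s : ℕ) (hs : s.Prime) (hs2 : s ≠ 2) (g : QG) (hg : orderOf g = s) (v : Fin 6 → F4) (hv : v ≠ 0)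
    (hfix : (ρ6 g).mulVec v = v) : ∃ x : QG, orderOf x = 2 * s := by
  have hd : s ∣ Nat.card QG := by
    rw [← hg]
    exact orderOf_dvd_natCard g
  rw [card_QG] at hd
  have hfact : (251596800 : ℕ) = 2 ^ 12 * 3 ^ 3 * 5 ^ 2 * 7 * 13 := by norm_num
  rw [hfact] at hd
  have h3 : s = 3 ∨ s = 5 ∨ s = 7 ∨ s = 13 := by
    rcases (Nat.Prime.dvd_mul hs).1 hd with h | h
    · rcases (Nat.Prime.dvd_mul hs).1 h with h | h
      · rcases (Nat.Prime.dvd_mul hs).1 h with h | h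
        · rcases (Nat.Prime.dvd_mul hs).1 h with h | h
          · exact absurd ((Nat.prime_dvd_prime_iff_eq hs (by norm_num)).1 (hs.dvd_of_dvd_pow h)) hs2
          · exact Or.inl ((Nat.prime_dvd_prime_iff_eq hs (by norm_num)).1 (hs.dvd_of_dvd_pow h))
        · exact Or.inr (Or.inl ((Nat.prime_dvd_prime_iff_eq hs (by norm_num)).1 (hs.dvd_of_dvd_pow h)))
      · exact Or.inr (Or.inr (Or.inl ((Nat.prime_dvd_prime_iff_eq hs (by norm_num)).1 h)))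
    · exact Or.inr (Or.inr (Or.inr ((Nat.prime_dvd_prime_iff_eq hs (by norm_num)).1 h)))
  rcases h3 with rfl | rfl | rfl | rfl
  · exact ⟨X6, order_X6⟩
  · exact ⟨X10, order_X10⟩
  · exact absurd (Cfsg.Agent.Lib.H14.PGUnb.no_fix ρ6 (by norm_num) (by rw [card_QG]; norm_num) order_X7 X7_fpf hg v hfix) hv
  · exact absurd (Cfsg.Agent.Lib.H14.PGUnb.no_fix ρ6 (by norm_num) (by rw [card_QG]; norm_num) order_X13 X13_fpf hg v hfix) hv

end Cfsg.Agent.Lib.H14.G24Rep
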