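/-
Mazurov's lemma on Frobenius quotients acting nontrivially: helper lemmas.
-/
import Cfsg.Agent.Lib.Basic.Frobenius

set_option autoImplicit false
set_option linter.unusedVariables false
set_option linter.style.haveILetI false
set_option linter.unusedSimpArgs false

namespace Cfsg.Agent.Lib.H14.MazFrob

open Subgroup Cfsg
open scoped Pointwise

section basics

variable {G : Type*} [Group G]

/-- `x` conjugates `P` into itself. -/
def Nz (x : G) (P : Subgroup G) : Prop := ∀ u ∈ P, x * u * x⁻¹ ∈ P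

theorem Nz.mul {x y : G} {P : Subgroup G} (hx : Nz x P) (hy : Nz y P) : Nz (x * y) P := by
  intro u hu
  have := hx _ (hy u hu)
  convert this using 1
  group

theorem Nz.mem_normalizer [Finite G] {x : G} {P : Subgroup G} (h : Nz x P) : x ∈ normalizer (P : Set G) := by
  rw [Subgroup.mem_normalizer_iff]
  intro u
  constructor
  · exact h u
  · intro hu
    let f : P → P := fun a => ⟨x * a * x⁻¹, h a a.2⟩
    have hf : Function.Injective f := by
      intro a b hab
      have := congrArg Subtype.val hab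
      apply Subtype.ext
      simpa [f] using this
    obtain ⟨a, ha⟩ := (Finite.injective_iff_surjective.mp hf) ⟨_, hu⟩
    have h1 : x * a * x⁻¹ = x * u * x⁻¹ := congrArg Subtype.val ha
    have h2 : (a : G) = u := by simpa using h1
    rw [← h2]
    exact a.2

theorem Nz_of_mem_normalizer {x : G} {P : Subgroup G} (h : x ∈ normalizer (P : Set G)) : Nz x P := by
  intro u hu
  exact (Subgroup.mem_normalizer_iff.mp h u).1 hu

theorem card_subgroupOf_of_le {Q T : Subgroup G} (h : Q ≤ T) : Nat.card (Q.subgroupOf T) = Nat.card Q :=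
  Nat.card_congr (Subgroup.subgroupOfEquivOfLe h).toEquiv

/-- Sylow conjugacy inside a subgroup. -/
theorem sylow_conj_in [Finite G] (T : Subgroup G) {r : ℕ} [Fact r.Prime] {Q₁ Q₂ : Subgroup G} (h₁ : Q₁ ≤ T)
    (h₂ : Q₂ ≤ T) (c₁ : Nat.card Q₁ = r ^ (Nat.card T).factorization r)
    (c₂ : Nat.card Q₂ = r ^ (Nat.card T).factorization r) :
    ∃ t ∈ T, ∀ u ∈ Q₁, t * u * t⁻¹ ∈ Q₂ := by
  let P₁ : Sylow r T := Sylow.ofCard (Q₁.subgroupOf T) (by rw [card_subgroupOf_of_le h₁, c₁])
  let P₂ : Sylow r T := Sylow.ofCard (Q₂.subgroupOf T) (by rw [card_subgroupOf_of_le h₂, c₂])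
  obtain ⟨t, ht⟩ := MulAction.exists_smul_eq T P₁ P₂
  refine ⟨t.1, t.2, fun u hu => ?_⟩
  have h1 : (t * ⟨u, h₁ hu⟩ * t⁻¹ : T) ∈ (t • P₁ : Sylow r T) := by
    rw [Sylow.smul_def]
    change _ ∈ Subgroup.map _ _
    exact Subgroup.mem_map.2 ⟨⟨u, h₁ hu⟩, hu, rfl⟩
  rw [ht] at h1
  exact h1

theorem card_map_conj (x : G) (P : Subgroup G) :
    Nat.card (P.map (MulAut.conj x).toMonoidHom) = Nat.card P :=
  Nat.card_congr (Subgroup.equivMapOfInjective P _ (MulAut.conj x).injective).toEquiv.symm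

/-- The Frattini argument, for elements. -/
theorem frattini_elt [Finite G] (T P : Subgroup G) {r : ℕ} [Fact r.Prime] (h : P ≤ T)
    (c : Nat.card P = r ^ (Nat.card T).factorization r) (x : G) (hx : ∀ u ∈ P, x * u * x⁻¹ ∈ T) :
    ∃ t ∈ T, Nz (t * x) P := by
  let Q := P.map (MulAut.conj x).toMonoidHom
  have hQ : Q ≤ T := by
    rintro _ ⟨u, hu, rfl⟩
    exact hx u hu
  obtain ⟨t, ht, hh⟩ := sylow_conj_in T hQ h ((card_map_conj x P).trans c) c
  refine ⟨t, ht, fun u hu => ?_⟩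
  have := hh (x * u * x⁻¹) ⟨u, hu, rfl⟩
  convert this using 1
  group

/-- A subgroup exists with the order of a Sylow subgroup of `T`. -/
theorem exists_sylow_sub [Finite G] (T : Subgroup G) (r : ℕ) [Fact r.Prime] :
    ∃ Q : Subgroup G, Q ≤ T ∧ Nat.card Q = r ^ (Nat.card T).factorization r := by
  obtain ⟨P⟩ : Nonempty (Sylow r T) := inferInstance
  refine ⟨(P : Subgroup T).map T.subtype, ?_, ?_⟩
  · rintro _ ⟨u, _, rfl⟩
    exact u.2
  · rw [Subgroup.card_map_of_injective T.subtype_injective]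
    exact Sylow.card_eq_multiplicity P

/-- A subgroup of `F` containing a full Sylow subgroup of `F` for every prime contains `F`. -/
theorem le_of_exists_sylow_le [Finite G] (F L : Subgroup G)
    (h : ∀ p : ℕ, p.Prime → ∃ Q : Subgroup G, Q ≤ F ∧ Nat.card Q = p ^ (Nat.card F).factorization p ∧ Q ≤ L) :
    F ≤ L := by
  have hidx : (L.subgroupOf F).index = 1 := by
    by_contra hne
    obtain ⟨p, hp, hd⟩ := Nat.exists_prime_and_dvd hne
    haveI : Fact p.Prime := ⟨hp⟩
    obtain ⟨Q, hQF, hc, hQL⟩ := h p hp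
    let P : Sylow p F := Sylow.ofCard (Q.subgroupOf F) (by rw [card_subgroupOf_of_le hQF, hc])
    have hle : (P : Subgroup F) ≤ L.subgroupOf F := by
      intro u hu
      exact hQL hu
    exact P.not_dvd_index (hd.trans (Subgroup.index_dvd_of_le hle))
  have := Subgroup.index_eq_one.mp hidx
  exact Subgroup.subgroupOf_eq_top.mp this

variable {N : Subgroup G}

/-- The final step: lifting orders. -/
theorem lemO [Finite G] (N : Subgroup G) [N.Normal] (z : G) (n : ℕ) (hn0 : 0 < n)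
    (hn : orderOf (QuotientGroup.mk' N z) = n) (h : z ^ n ∈ N) (hne : z ^ n ≠ 1) :
    ∃ p : ℕ, p.Prime ∧ p ∣ Nat.card N ∧ ∃ g : G, orderOf g = p * n := by
  have h1 : n ∣ orderOf z := by
    rw [← hn]
    exact orderOf_map_dvd _ _
  obtain ⟨k, hk⟩ := h1
  have ho : 0 < orderOf z := orderOf_pos z
  have hk0 : 0 < k := by
    rcases Nat.eq_zero_or_pos k with rfl | h0
    · rw [mul_zero] at hk; omega
    · exact h0
  have h2 : orderOf (z ^ n) = k := by
    rw [orderOf_pow' z hn0.ne', hk, Nat.gcd_mul_right_left, Nat.mul_div_cancel_left _ hn0]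
  have h3 : k ≠ 1 := by
    intro e
    rw [e, orderOf_eq_one_iff] at h2
    exact hne h2
  obtain ⟨p, hp, hpk⟩ := Nat.exists_prime_and_dvd h3
  refine ⟨p, hp, ?_, ?_⟩
  · apply hpk.trans
    rw [← h2]
    have := orderOf_dvd_natCard (⟨z ^ n, h⟩ : N)
    rwa [Subgroup.orderOf_mk] at this
  · obtain ⟨j, hj⟩ := hpk
    have hj0 : 0 < j := by
      rcases Nat.eq_zero_or_pos j with rfl | h0
      · rw [mul_zero] at hj; omega
      · exact h0
    refine ⟨z ^ j, ?_⟩
    rw [orderOf_pow' z hj0.ne', hk, hj]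
    have h4 : n * (p * j) = (n * p) * j := by ring
    rw [h4, Nat.gcd_mul_left_left, Nat.mul_div_cancel _ hj0, mul_comm]

end basics

section frob

variable {Γ : Type*} [Group Γ] [Finite Γ] {F H : Subgroup Γ}

theorem frob_inf (hk : frobeniusKernel H = (F : Set Γ)) {x : Γ} (hxH : x ∈ H) (hxF : x ∈ F) : x = 1 := by
  have : x ∈ frobeniusKernel H := by rw [hk]; exact hxF
  rcases this with h | h
  · exact h
  · exfalso
    apply h 1
    simpa using hxH

theorem frob_sup (hH : IsFrobeniusComplement H) (hk : frobeniusKernel H = (F : Set Γ)) (g : Γ) :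
    ∃ f ∈ F, ∃ c ∈ H, g = f * c := by
  have hcd : Cfsg.Agent.Lib.Basic.IsConjDisjoint H := hH.2.2
  have h1 := hcd.ncard_frobeniusKernel
  rw [hk] at h1
  have h2 : Nat.card F = H.index := by
    rw [← h1]
    exact Nat.card_coe_set_eq _
  have h3 : Nat.card F * Nat.card H = Nat.card Γ := by
    rw [h2, mul_comm]
    exact Subgroup.card_mul_index H
  have hd : Disjoint F H := by
    rw [Subgroup.disjoint_def]
    intro x hxF hxH
    exact frob_inf hk hxH hxF
  have hc := Subgroup.isComplement'_of_card_mul_and_disjoint h3 hd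
  obtain ⟨⟨⟨f, hf⟩, ⟨c, hc'⟩⟩, hp, -⟩ := hc.existsUnique g
  exact ⟨f, hf, c, hc', hp.symm⟩

/-- No nontrivial element of the kernel commutes with a nontrivial element of the complement. -/
theorem frob_free (hH : IsFrobeniusComplement H) (hk : frobeniusKernel H = (F : Set Γ)) {c x : Γ}
    (hc : c ∈ H) (hc1 : c ≠ 1) (hx : x ∈ F) (hcomm : x * c = c * x) : x = 1 := by
  by_contra hne
  have hxH : x ∈ H := by
    by_contra hxH
    have h1 := hH.2.2 x hxH
    have h2 : c ∈ H ⊓ (MulAut.conj x • H) := by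
      refine ⟨hc, ?_⟩
      refine ⟨c, hc, ?_⟩
      change x * c * x⁻¹ = c
      rw [hcomm]
      group
    rw [h1] at h2
    exact hc1 h2
  exact hne (frob_inf hk hxH hx)

/-- Elements of the coset `F h` are conjugate to `h`. -/
theorem frob_conj (hH : IsFrobeniusComplement H) (hk : frobeniusKernel H = (F : Set Γ)) [F.Normal]
    (hcyc : IsCyclic H) {h f : Γ} (hh : h ∈ H) (hh1 : h ≠ 1) (hf : f ∈ F) :
    ∃ g : Γ, f * h = g * h * g⁻¹ := by
  have hm : f * h ∉ F := by
    intro hcon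
    have : h ∈ F := by
      have := F.mul_mem (F.inv_mem hf) hcon
      simpa using this
    exact hh1 (frob_inf hk hh this)
  have hm' : f * h ∉ frobeniusKernel H := by
    rw [hk]; exact hm
  simp only [frobeniusKernel, Set.mem_ofPred_eq, not_or, not_forall, not_not] at hm'
  obtain ⟨-, g₀, hg₀⟩ := hm'
  obtain ⟨c, hc, hcg⟩ := hg₀
  change g₀ * c * g₀⁻¹ = f * h at hcg
  obtain ⟨f₁, hf₁, c₁, hc₁, rfl⟩ := frob_sup hH hk g₀
  -- `c₁` commutes with `c`
  have hcomm : c₁ * c * c₁⁻¹ = c := by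
    have := (IsCyclic.commGroup (α := H)).mul_comm ⟨c₁, hc₁⟩ ⟨c, hc⟩
    have h1 : c₁ * c = c * c₁ := congrArg Subtype.val this
    rw [h1]
    group
  have h1 : f * h = f₁ * c * f₁⁻¹ := by
    calc f * h = (f₁ * c₁) * c * (f₁ * c₁)⁻¹ := hcg.symm
      _ = f₁ * (c₁ * c * c₁⁻¹) * f₁⁻¹ := by group
      _ = f₁ * c * f₁⁻¹ := by rw [hcomm]
  -- compare modulo `F`
  have h2 : h * c⁻¹ ∈ F := by
    -- `h c⁻¹ = f⁻¹ (f₁ c f₁⁻¹) c⁻¹`
    have h3 : h * c⁻¹ = f⁻¹ * (f₁ * (c * f₁⁻¹ * c⁻¹)) := by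
      have : h = f⁻¹ * (f₁ * c * f₁⁻¹) := by rw [← h1]; group
      rw [this]
      group
    rw [h3]
    refine F.mul_mem (F.inv_mem hf) (F.mul_mem hf₁ ?_)
    exact ‹F.Normal›.conj_mem _ (F.inv_mem hf₁) c
  have h4 : h * c⁻¹ = 1 := frob_inf hk (H.mul_mem hh (H.inv_mem hc)) h2
  have h5 : c = h := by
    have := mul_inv_eq_one.mp h4
    exact this.symm
  refine ⟨f₁, ?_⟩
  rw [h1, h5]

end frob

section norm

open scoped BigOperators

/-- The norm of a Frobenius complement does not vanish when the kernel acts nontrivially. -/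
theorem norm_ne {A W : Type*} [Group A] [CommGroup W] [Finite W] (φ : A →* MulAut W) (R : Subgroup A) [Finite R]
    (y : A) (n : ℕ) (hn0 : 0 < n) (hn : y ^ n = 1) (hyR : ∀ f ∈ R, y * f * y⁻¹ ∈ R)
    (hfree : ∀ i, 0 < i → i < n → ∀ f ∈ R, y ^ i * f = f * y ^ i → f = 1)
    (hcop : Nat.Coprime (Nat.card R) (Nat.card W))
    (hnt : ∃ f ∈ R, ∃ w, φ f w ≠ w) :
    ∃ w : W, ∏ i ∈ Finset.range n, φ (y ^ i) w ≠ 1 := by
  classical
  by_contra hcon
  push Not at hcon
  letI : Fintype R := Fintype.ofFinite R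
  obtain ⟨f₀, hf₀, w₀, hw₀⟩ := hnt
  -- the averaging map
  let e : W → W := fun v => ∏ f : R, φ (f : A) v
  have e_mul : ∀ a b, e (a * b) = e a * e b := by
    intro a b
    simp only [e, map_mul, Finset.prod_mul_distrib]
  have e_inv : ∀ a, e a⁻¹ = (e a)⁻¹ := by
    intro a
    simp only [e, map_inv, Finset.prod_inv_distrib]
  have e_right : ∀ (g : A) (hg : g ∈ R) (v : W), e (φ g v) = e v := by
    intro g hg v
    have : ∀ f : R, φ (f : A) (φ g v) = φ ((Equiv.mulRight (⟨g, hg⟩ : R)) f : R) v := by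
      intro f
      change φ (f : A) (φ g v) = φ ((f : A) * g) v
      rw [map_mul]
      rfl
    simp only [e, this]
    exact Equiv.prod_comp (Equiv.mulRight (⟨g, hg⟩ : R)) (fun f : R => φ (f : A) v)
  set v : W := w₀ * (φ f₀ w₀)⁻¹ with hv
  have hv1 : v ≠ 1 := by
    intro h
    apply hw₀
    rw [hv, mul_inv_eq_one] at h
    exact h.symm
  have hev : e v = 1 := by
    rw [hv, e_mul, e_inv, e_right f₀ hf₀, mul_inv_cancel]
  -- powers of `y` normalise `R`
  have hyi : ∀ i : ℕ, ∀ f ∈ R, y ^ i * f * (y ^ i)⁻¹ ∈ R := by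
    intro i
    induction i with
    | zero => intro f hf; simpa using hf
    | succ i ih =>
      intro f hf
      have := ih _ (hyR f hf)
      convert this using 1
      rw [pow_succ]
      group
  -- a bijection lemma
  have hterm : ∀ i, 0 < i → i < n → ∏ f : R, φ ((f : A) * y ^ i * (f : A)⁻¹) v = 1 := by
    intro i hi0 hin
    let c : R → R := fun f => ⟨y ^ i * f * (y ^ i)⁻¹, hyi i f f.2⟩
    have hc_inj : Function.Injective c := by
      intro a b hab
      have := congrArg Subtype.val hab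
      apply Subtype.ext
      simpa [c] using this
    have hc_bij : Function.Bijective c := Finite.injective_iff_bijective.mp hc_inj
    let σ : R → R := fun f => f * (c f)⁻¹
    have hσ_inj : Function.Injective σ := by
      intro a b hab
      have h1 : (a : A) * (y ^ i * (a : A) * (y ^ i)⁻¹)⁻¹ = (b : A) * (y ^ i * (b : A) * (y ^ i)⁻¹)⁻¹ :=
        congrArg Subtype.val hab
      have h2 : y ^ i * ((b : A)⁻¹ * (a : A)) = ((b : A)⁻¹ * (a : A)) * y ^ i := by
        have h3 : (b : A)⁻¹ * a = (y ^ i * (b : A) * (y ^ i)⁻¹)⁻¹ * (y ^ i * (a : A) * (y ^ i)⁻¹) := by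
          have h4 : (a : A) = (b : A) * (y ^ i * (b : A) * (y ^ i)⁻¹)⁻¹ * (y ^ i * (a : A) * (y ^ i)⁻¹) := by
            rw [← h1]
            group
          calc (b : A)⁻¹ * a = (b : A)⁻¹ * ((b : A) * (y ^ i * (b : A) * (y ^ i)⁻¹)⁻¹ * (y ^ i * (a : A) * (y ^ i)⁻¹)) := by
                rw [← h4]
            _ = _ := by group
        calc y ^ i * ((b : A)⁻¹ * (a : A)) = y ^ i * ((b : A)⁻¹ * (a : A)) * (y ^ i)⁻¹ * y ^ i := by group
          _ = (y ^ i * (b : A) * (y ^ i)⁻¹)⁻¹ * (y ^ i * (a : A) * (y ^ i)⁻¹) * y ^ i := by group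
          _ = ((b : A)⁻¹ * (a : A)) * y ^ i := by rw [← h3]
      have h5 := hfree i hi0 hin ((b : A)⁻¹ * a) (R.mul_mem (R.inv_mem b.2) a.2) h2
      apply Subtype.ext
      have := inv_mul_eq_one.mp h5
      exact this.symm
    have hσ_bij : Function.Bijective σ := Finite.injective_iff_bijective.mp hσ_inj
    have h1 : ∀ f : R, φ ((f : A) * y ^ i * (f : A)⁻¹) v = φ ((σ f : R) : A) (φ (y ^ i) v) := by
      intro f
      have : (f : A) * y ^ i * (f : A)⁻¹ = ((σ f : R) : A) * y ^ i := by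
        change _ = (f : A) * (y ^ i * (f : A) * (y ^ i)⁻¹)⁻¹ * y ^ i
        group
      rw [this, map_mul φ, MulAut.mul_apply]
    simp only [h1]
    have h2 : ∏ f : R, φ ((σ f : R) : A) (φ (y ^ i) v) = e (φ (y ^ i) v) :=
      Function.Bijective.prod_comp hσ_bij (fun f : R => φ (f : A) (φ (y ^ i) v))
    rw [h2]
    -- `e (y^i v) = y^i (e v)`
    have h3 : e (φ (y ^ i) v) = φ (y ^ i) (e v) := by
      have h4 : ∀ f : R, φ (y ^ i) (φ (f : A) v) = φ ((c f : R) : A) (φ (y ^ i) v) := by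
        intro f
        have : y ^ i * (f : A) = ((c f : R) : A) * y ^ i := by
          change _ = y ^ i * (f : A) * (y ^ i)⁻¹ * y ^ i
          group
        rw [← MulAut.mul_apply, ← map_mul φ, this, map_mul φ, MulAut.mul_apply]
      simp only [e, map_prod, h4]
      exact (Function.Bijective.prod_comp hc_bij (fun f : R => φ (f : A) (φ (y ^ i) v))).symm
    rw [h3, hev, map_one]
  -- summing over the conjugates
  have hall : ∏ f : R, ∏ i ∈ Finset.range n, φ ((f : A) * y ^ i * (f : A)⁻¹) v = 1 := by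
    refine Finset.prod_eq_one fun f _ => ?_
    have h1 := hcon (φ (f : A)⁻¹ v)
    have h2 := congrArg (φ (f : A)) h1
    rw [map_one, map_prod] at h2
    rw [← h2]
    refine Finset.prod_congr rfl fun i _ => ?_
    simp only [map_mul, MulAut.mul_apply]
  rw [Finset.prod_comm] at hall
  have hsplit : ∏ i ∈ Finset.range n, ∏ f : R, φ ((f : A) * y ^ i * (f : A)⁻¹) v =
      ∏ f : R, φ ((f : A) * y ^ 0 * (f : A)⁻¹) v := by
    refine Finset.prod_eq_single_of_mem 0 (Finset.mem_range.mpr hn0) ?_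
    intro i hi hi0
    exact hterm i (Nat.pos_of_ne_zero hi0) (Finset.mem_range.mp hi)
  rw [hsplit] at hall
  have h0 : ∏ f : R, φ ((f : A) * y ^ 0 * (f : A)⁻¹) v = v ^ Nat.card R := by
    have : ∀ f : R, φ ((f : A) * y ^ 0 * (f : A)⁻¹) v = v := by
      intro f
      have : (f : A) * y ^ 0 * (f : A)⁻¹ = 1 := by group
      rw [this, map_one]
      rfl
    simp only [this, Finset.prod_const, Finset.card_univ, Nat.card_eq_fintype_card]
  rw [h0] at hall
  have h1 : v ^ Nat.card W = 1 := pow_card_eq_one'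
  have h2 : v ^ (Nat.gcd (Nat.card R) (Nat.card W)) = 1 := pow_gcd_eq_one.2 ⟨hall, h1⟩
  rw [hcop, pow_one] at h2
  exact hv1 h2

end norm

end Cfsg.Agent.Lib.H14.MazFrob
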