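/-
Mazurov's lemma on Frobenius quotients acting nontrivially: main argument.
-/
import Cfsg.Agent.Lib.H14.MazFrob

set_option autoImplicit false
set_option linter.unusedVariables false
set_option linter.style.haveILetI false
set_option linter.unusedSimpArgs false

namespace Cfsg.Agent.Lib.H14.MazFrob

open Subgroup Cfsg
open scoped Pointwise

section lift

variable {G : Type*} [Group G] [Finite G]

theorem mk_eq_one' {N : Subgroup G} [N.Normal] {x : G} (hx : x ∈ N) : QuotientGroup.mk' N x = 1 :=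
  (QuotientGroup.eq_one_iff x).mpr hx

theorem card_comap_mk (N : Subgroup G) [N.Normal] (Rb : Subgroup (G ⧸ N)) :
    Nat.card (Rb.comap (QuotientGroup.mk' N)) = Nat.card Rb * Nat.card N := by
  have h1 := Subgroup.card_mul_index (Rb.comap (QuotientGroup.mk' N))
  have h2 := Subgroup.card_mul_index Rb
  have h3 : (Rb.comap (QuotientGroup.mk' N)).index = Rb.index :=
    Subgroup.index_comap_of_surjective Rb (QuotientGroup.mk'_surjective N)
  have h4 : Nat.card G = Nat.card (G ⧸ N) * Nat.card N := Subgroup.card_eq_card_quotient_mul_card_subgroup N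
  rw [h3] at h1
  have h5 : 0 < Rb.index := Nat.pos_of_ne_zero (Subgroup.index_ne_zero_of_finite)
  have h6 : Nat.card (Rb.comap (QuotientGroup.mk' N)) * Rb.index = (Nat.card Rb * Nat.card N) * Rb.index := by
    rw [h1, h4, ← h2]
    ring
  exact Nat.eq_of_mul_eq_mul_right h5 h6

theorem factorization_card_comap (N : Subgroup G) [N.Normal] (Rb : Subgroup (G ⧸ N)) {r a : ℕ} (hr : r.Prime)
    (hRb : Nat.card Rb = r ^ a) (hrN : ¬ r ∣ Nat.card N) :
    (Nat.card (Rb.comap (QuotientGroup.mk' N))).factorization r = a := by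
  rw [card_comap_mk, hRb, Nat.factorization_mul (pow_ne_zero _ hr.ne_zero) Nat.card_pos.ne',
    Nat.Prime.factorization_pow hr]
  simp [Nat.factorization_eq_zero_of_not_dvd hrN]

/-- A coprime Sylow lift. -/
theorem lift_sylow (N : Subgroup G) [N.Normal] (Rb : Subgroup (G ⧸ N)) {r a : ℕ} [Fact r.Prime]
    (hRb : Nat.card Rb = r ^ a) (hrN : ¬ r ∣ Nat.card N) :
    ∃ R : Subgroup G, R ≤ Rb.comap (QuotientGroup.mk' N) ∧ Nat.card R = r ^ a ∧ R.map (QuotientGroup.mk' N) = Rb ∧
      (∀ f ∈ R, f ∈ N → f = 1) := by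
  have hr : r.Prime := Fact.out
  obtain ⟨R, hRT, hcR⟩ := exists_sylow_sub (Rb.comap (QuotientGroup.mk' N)) r
  rw [factorization_card_comap N Rb hr hRb hrN] at hcR
  have hinf : ∀ f ∈ R, f ∈ N → f = 1 := by
    intro f hfR hfN
    have h1 : orderOf f ∣ r ^ a := by
      rw [← hcR]
      have := orderOf_dvd_natCard (⟨f, hfR⟩ : R)
      rwa [Subgroup.orderOf_mk] at this
    have h2 : orderOf f ∣ Nat.card N := by
      have := orderOf_dvd_natCard (⟨f, hfN⟩ : N)
      rwa [Subgroup.orderOf_mk] at this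
    have h3 : Nat.Coprime (r ^ a) (Nat.card N) :=
      Nat.Coprime.pow_left _ ((Nat.Prime.coprime_iff_not_dvd hr).2 hrN)
    have h4 : orderOf f = 1 := Nat.eq_one_of_dvd_coprimes h3 h1 h2
    exact orderOf_eq_one_iff.mp h4
  refine ⟨R, hRT, hcR, ?_, hinf⟩
  have hle : R.map (QuotientGroup.mk' N) ≤ Rb := by
    rintro _ ⟨u, hu, rfl⟩
    exact hRT hu
  have hinj : Function.Injective ((QuotientGroup.mk' N).comp R.subtype) := by
    rw [injective_iff_map_eq_one]
    rintro ⟨f, hf⟩ h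
    have h2 : f ∈ N := (QuotientGroup.eq_one_iff f).mp h
    exact Subtype.ext (hinf f hf h2)
  have hcard : Nat.card (R.map (QuotientGroup.mk' N)) = Nat.card R := by
    have h1 : ((QuotientGroup.mk' N).comp R.subtype).range = R.map (QuotientGroup.mk' N) := by
      rw [MonoidHom.range_comp, Subgroup.range_subtype]
    rw [← h1]
    exact (Nat.card_congr (MonoidHom.ofInjective hinj).toEquiv).symm
  apply Subgroup.eq_of_le_of_card_ge hle
  rw [hRb, hcard, hcR]

/-- A coprime group normalising a Sylow subgroup of `N`. -/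
theorem exists_sylow_normalized (N : Subgroup G) [N.Normal] (Rb : Subgroup (G ⧸ N)) {r a : ℕ} [Fact r.Prime]
    (hRb : Nat.card Rb = r ^ a) (hrN : ¬ r ∣ Nat.card N) (R : Subgroup G)
    (hRT : R ≤ Rb.comap (QuotientGroup.mk' N)) (hcR : Nat.card R = r ^ a)
    (s : ℕ) [Fact s.Prime] :
    ∃ P : Subgroup G, P ≤ N ∧ Nat.card P = s ^ (Nat.card N).factorization s ∧ ∀ f ∈ R, Nz f P := by
  have hr : r.Prime := Fact.out
  set T := Rb.comap (QuotientGroup.mk' N) with hT
  have hfT : (Nat.card T).factorization r = a := factorization_card_comap N Rb hr hRb hrN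
  obtain ⟨P₀, hP₀N, hcP₀⟩ := exists_sylow_sub N s
  have hNT : N ≤ T := by
    intro x hx
    change QuotientGroup.mk' N x ∈ Rb
    rw [mk_eq_one' hx]
    exact Rb.one_mem
  set M := T ⊓ normalizer (P₀ : Set G) with hM
  have hMmap : M.map (QuotientGroup.mk' N) = Rb := by
    apply le_antisymm
    · rintro _ ⟨u, hu, rfl⟩
      exact hu.1
    · intro x hx
      obtain ⟨t, rfl⟩ := QuotientGroup.mk'_surjective N x
      have htT : t ∈ T := hx
      obtain ⟨n, hn, hnz⟩ := frattini_elt N P₀ hP₀N hcP₀ t (fun u hu => ‹N.Normal›.conj_mem u (hP₀N hu) t)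
      refine ⟨n * t, ⟨T.mul_mem (hNT hn) htT, hnz.mem_normalizer⟩, ?_⟩
      rw [map_mul, mk_eq_one' hn, one_mul]
  have hMT : M ≤ T := inf_le_left
  have h1 : r ^ a ∣ Nat.card M := by
    rw [← hRb, ← hMmap]
    exact Subgroup.card_map_dvd M _
  have h2 : (Nat.card M).factorization r = a := by
    apply le_antisymm
    · rw [← hfT]
      exact (Nat.factorization_le_iff_dvd Nat.card_pos.ne' Nat.card_pos.ne').2
        (Subgroup.card_dvd_of_le hMT) r
    · exact (hr.pow_dvd_iff_le_factorization Nat.card_pos.ne').1 h1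
  obtain ⟨Q, hQM, hcQ⟩ := exists_sylow_sub M r
  rw [h2] at hcQ
  obtain ⟨t, htT, hh⟩ := sylow_conj_in T hRT (hQM.trans hMT) (by rw [hfT, hcR]) (by rw [hfT, hcQ])
  refine ⟨P₀.map (MulAut.conj t⁻¹).toMonoidHom, ?_, ?_, ?_⟩
  · rintro _ ⟨u, hu, rfl⟩
    exact ‹N.Normal›.conj_mem u (hP₀N hu) t⁻¹
  · rw [card_map_conj, hcP₀]
  · intro f hf u hu
    obtain ⟨v, hv, rfl⟩ := hu
    have h3 : t * f * t⁻¹ ∈ normalizer (P₀ : Set G) := (hQM (hh f hf)).2
    have h4 := Nz_of_mem_normalizer h3 v hv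
    refine ⟨_, h4, ?_⟩
    simp only [MulEquiv.coe_toMonoidHom, MulAut.conj_apply, inv_inv]
    group

/-- The Frattini argument twice, giving the lift of the Frobenius complement. -/
theorem exists_lift_elt (N : Subgroup G) [N.Normal] (Fb Rb : Subgroup (G ⧸ N)) [Fb.Normal]
    {r a : ℕ} [Fact r.Prime] (hRbF : Rb ≤ Fb) (hRb : Nat.card Rb = r ^ a) (haF : (Nat.card Fb).factorization r = a)
    (hrN : ¬ r ∣ Nat.card N) (R : Subgroup G)
    (hRT : R ≤ Rb.comap (QuotientGroup.mk' N)) (hcR : Nat.card R = r ^ a)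
    {s : ℕ} [Fact s.Prime] (P : Subgroup G) (hPN : P ≤ N) (hcP : Nat.card P = s ^ (Nat.card N).factorization s)
    (hRP : ∀ f ∈ R, Nz f P) (h : G ⧸ N) :
    ∃ y : G, Nz y P ∧ Nz y R ∧ ∃ f₁ ∈ Fb, QuotientGroup.mk' N y = f₁ * h := by
  have hr : r.Prime := Fact.out
  set T := Rb.comap (QuotientGroup.mk' N) with hT
  have hfT : (Nat.card T).factorization r = a := factorization_card_comap N Rb hr hRb hrN
  have hNT : N ≤ T := by
    intro x hx
    change QuotientGroup.mk' N x ∈ Rb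
    rw [mk_eq_one' hx]
    exact Rb.one_mem
  obtain ⟨f₀, hf₀, hm⟩ := frattini_elt Fb Rb hRbF (by rw [hRb, haF]) h
    (fun u hu => ‹Fb.Normal›.conj_mem u (hRbF hu) h)
  obtain ⟨x, hx⟩ := QuotientGroup.mk'_surjective N (f₀ * h)
  obtain ⟨n', hn', hy₀⟩ := frattini_elt N P hPN hcP x (fun u hu => ‹N.Normal›.conj_mem u (hPN hu) x)
  set y₀ := n' * x with hy₀def
  have hπy₀ : QuotientGroup.mk' N y₀ = f₀ * h := by
    rw [hy₀def, map_mul, mk_eq_one' hn', one_mul, hx]
  have hy₀T : ∀ u ∈ T, y₀ * u * y₀⁻¹ ∈ T := by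
    intro u hu
    change QuotientGroup.mk' N (y₀ * u * y₀⁻¹) ∈ Rb
    rw [map_mul, map_mul, map_inv, hπy₀]
    exact hm _ hu
  set T₃ := T ⊓ normalizer (P : Set G) with hT₃
  have hRT₃ : R ≤ T₃ := fun f hf => ⟨hRT hf, (hRP f hf).mem_normalizer⟩
  have hT₃T : T₃ ≤ T := inf_le_left
  have hfT₃ : (Nat.card T₃).factorization r = a := by
    apply le_antisymm
    · rw [← hfT]
      exact (Nat.factorization_le_iff_dvd Nat.card_pos.ne' Nat.card_pos.ne').2
        (Subgroup.card_dvd_of_le hT₃T) r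
    · apply (hr.pow_dvd_iff_le_factorization Nat.card_pos.ne').1
      rw [← hcR]
      exact Subgroup.card_dvd_of_le hRT₃
  obtain ⟨t₃, ht₃, hy⟩ := frattini_elt T₃ R hRT₃ (by rw [hcR, hfT₃]) y₀ (by
    intro u hu
    refine ⟨hy₀T u (hRT hu), ?_⟩
    exact (normalizer (P : Set G)).mul_mem ((normalizer (P : Set G)).mul_mem hy₀.mem_normalizer
      (hRP u hu).mem_normalizer) ((normalizer (P : Set G)).inv_mem hy₀.mem_normalizer))
  refine ⟨t₃ * y₀, ?_, hy, QuotientGroup.mk' N t₃ * f₀, ?_, ?_⟩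
  · exact Nz.mul (Nz_of_mem_normalizer ht₃.2) hy₀
  · exact Fb.mul_mem (hRbF ht₃.1) hf₀
  · rw [map_mul, hπy₀]
    group

end lift

section minimal

variable {G : Type*} [Group G] [Finite G]

/-- Subgroups of `P` invariant under `y` and `R` on which `R` acts nontrivially. -/
def Good (P R : Subgroup G) (y : G) (X : Subgroup G) : Prop :=
  X ≤ P ∧ Nz y X ∧ (∀ f ∈ R, Nz f X) ∧ ∃ f ∈ R, ∃ u ∈ X, f * u * f⁻¹ ≠ u

theorem Nz_commutator {x : G} {X : Subgroup G} (h : Nz x X) : Nz x ⁅X, X⁆ := by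
  intro u hu
  have h1 : (⁅X, X⁆ : Subgroup G).map (MulAut.conj x).toMonoidHom ≤ ⁅X, X⁆ := by
    rw [Subgroup.map_commutator]
    have : X.map (MulAut.conj x).toMonoidHom ≤ X := by
      rintro _ ⟨v, hv, rfl⟩
      exact h v hv
    exact Subgroup.commutator_mono this this
  exact h1 ⟨u, hu, rfl⟩

theorem commutator_le_self' (X : Subgroup G) : ⁅X, X⁆ ≤ X :=
  Subgroup.commutator_le.2 fun a ha b hb => by
    rw [commutatorElement_def]
    exact X.mul_mem (X.mul_mem (X.mul_mem ha hb) (X.inv_mem ha)) (X.inv_mem hb)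

theorem exists_min_good {s : ℕ} [Fact s.Prime] (P R : Subgroup G) (y : G) {b : ℕ} (hcP : Nat.card P = s ^ b)
    (h0 : Good P R y P) :
    ∃ X, Good P R y X ∧ ∀ f ∈ R, ∀ u ∈ (⁅X, X⁆ : Subgroup G), f * u * f⁻¹ = u := by
  classical
  have hs : s.Prime := Fact.out
  have hex : ∃ k, ∃ X, Good P R y X ∧ Nat.card X = k := ⟨_, P, h0, rfl⟩
  obtain ⟨X, hX, hk⟩ := Nat.find_spec hex
  refine ⟨X, hX, ?_⟩
  by_contra hcon
  push Not at hcon
  obtain ⟨f, hf, u, hu, hne⟩ := hcon
  have hgood : Good P R y ⁅X, X⁆ := ⟨(commutator_le_self' X).trans hX.1, Nz_commutator hX.2.1,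
    fun g hg => Nz_commutator (hX.2.2.1 g hg), f, hf, u, hu, hne⟩
  have hlt : Nat.card (⁅X, X⁆ : Subgroup G) < Nat.card X := by
    by_contra hle
    push Not at hle
    have heq : (⁅X, X⁆ : Subgroup G) = X := Subgroup.eq_of_le_of_card_ge (commutator_le_self' X) hle
    -- `X` is a nontrivial `s`-group
    obtain ⟨g, hg, v, hv, hgv⟩ := hX.2.2.2
    have hv1 : v ≠ 1 := by
      rintro rfl
      apply hgv
      group
    haveI : Nontrivial X := ⟨⟨⟨v, hv⟩, 1, fun h => hv1 (congrArg Subtype.val h)⟩⟩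
    have hdvd : Nat.card X ∣ s ^ b := by
      rw [← hcP]
      exact Subgroup.card_dvd_of_le hX.1
    obtain ⟨c, -, hc⟩ := (Nat.dvd_prime_pow hs).1 hdvd
    have hpg : IsPGroup s X := IsPGroup.of_card hc
    haveI : Group.IsNilpotent X := hpg.isNilpotent
    have hlt2 := IsSolvable.commutator_lt_top_of_nontrivial X
    apply hlt2.ne
    apply Subgroup.map_injective X.subtype_injective
    rw [Subgroup.map_subtype_commutator, heq, ← MonoidHom.range_eq_map, Subgroup.range_subtype]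
  exact Nat.find_min hex (hk ▸ hlt) ⟨_, hgood, rfl⟩

end minimal

section abel

/-- The induced action on the abelianization. -/
def abelAct {A X : Type*} [Group A] [Group X] (φ₀ : A →* MulAut X) : A →* MulAut (Abelianization X) where
  toFun a := (φ₀ a).abelianizationCongr
  map_one' := by
    ext w
    induction w using QuotientGroup.induction_on with
    | H z => simp [map_one]; rfl
  map_mul' a b := by
    ext w
    induction w using QuotientGroup.induction_on with
    | H z => simp [map_mul]; rfl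

theorem abelAct_of {A X : Type*} [Group A] [Group X] (φ₀ : A →* MulAut X) (a : A) (x : X) :
    abelAct φ₀ a (Abelianization.of x) = Abelianization.of (φ₀ a x) := rfl

variable {G : Type*} [Group G] [Finite G]

open scoped BigOperators in
theorem exists_nonfixed_power (X R : Subgroup G) (y : G) (n : ℕ) (hn0 : 0 < n) (hn : y ^ n = 1)
    (hyX : Nz y X) (hyR : Nz y R) (hRX : ∀ f ∈ R, Nz f X)
    (hfree : ∀ i, 0 < i → i < n → ∀ f ∈ R, y ^ i * f = f * y ^ i → f = 1)
    (hcop : Nat.Coprime (Nat.card R) (Nat.card X))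
    (hnt : ∃ f ∈ R, ∃ u ∈ X, f * u * f⁻¹ ≠ u)
    (htriv : ∀ f ∈ R, ∀ u ∈ (⁅X, X⁆ : Subgroup G), f * u * f⁻¹ = u) :
    ∃ x ∈ X, (x * y) ^ n ≠ 1 ∧ (x * y) ^ n ∈ X := by
  classical
  let A := normalizer (X : Set G)
  let φ₀ : A →* MulAut X := X.normalizerMonoidHom
  have hφ₀ : ∀ (a : A) (u : X), ((φ₀ a u : X) : G) = (a : G) * u * (a : G)⁻¹ := fun a u => rfl
  let φ := abelAct φ₀
  let R' : Subgroup A := R.subgroupOf A
  have hRA : R ≤ A := fun f hf => (hRX f hf).mem_normalizer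
  let y' : A := ⟨y, hyX.mem_normalizer⟩
  have hy'n : ∀ k : ℕ, ((y' ^ k : A) : G) = y ^ k := fun k => by
    simp [y']
  have hR'c : Nat.card R' = Nat.card R := card_subgroupOf_of_le hRA
  have key : ∃ w : Abelianization X, ∏ i ∈ Finset.range n, φ (y' ^ i) w ≠ 1 := by
    apply norm_ne φ R' y' n hn0 (Subtype.ext (by rw [hy'n]; simpa using hn))
    · intro f hf
      exact hyR _ hf
    · intro i hi0 hin f hf hcomm
      have h1 : y ^ i * (f : G) = (f : G) * y ^ i := by
        have := congrArg Subtype.val hcomm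
        simpa [hy'n] using this
      exact Subtype.ext (hfree i hi0 hin f hf h1)
    · rw [hR'c]
      exact Nat.Coprime.coprime_dvd_right (Subgroup.card_quotient_dvd_card (commutator X)) hcop
    · by_contra hcon
      push Not at hcon
      obtain ⟨f, hf, u, hu, hne⟩ := hnt
      apply hne
      have h1 := hcon ⟨f, hRA hf⟩ hf (Abelianization.of ⟨u, hu⟩)
      have h2 : Abelianization.of (φ₀ ⟨f, hRA hf⟩ ⟨u, hu⟩) = Abelianization.of (⟨u, hu⟩ : X) := h1
      have h3 : ((⟨u, hu⟩ : X))⁻¹ * (φ₀ ⟨f, hRA hf⟩ ⟨u, hu⟩) ∈ commutator X := by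
        exact QuotientGroup.eq.1 h2.symm
      set z : G := u⁻¹ * (f * u * f⁻¹) with hz
      have hzX : z ∈ X := X.mul_mem (X.inv_mem hu) (hRX f hf u hu)
      have hzc : z ∈ (⁅X, X⁆ : Subgroup G) := by
        rw [← Subgroup.map_subtype_commutator]
        exact ⟨_, h3, rfl⟩
      have hfz : f * z * f⁻¹ = z := htriv f hf z hzc
      have hpow : ∀ k : ℕ, f ^ k * u * (f ^ k)⁻¹ = u * z ^ k := by
        intro k
        induction k with
        | zero => simp
        | succ k ih =>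
          have h4 : f ^ (k + 1) * u * (f ^ (k + 1))⁻¹ = f * (f ^ k * u * (f ^ k)⁻¹) * f⁻¹ := by
            rw [pow_succ']
            group
          rw [h4, ih]
          have h5 : f * z ^ k * f⁻¹ = z ^ k := by
            rw [← conj_pow, hfz]
          have h6 : f * (u * z ^ k) * f⁻¹ = (f * u * f⁻¹) * (f * z ^ k * f⁻¹) := by group
          rw [h6, h5]
          have h7 : f * u * f⁻¹ = u * z := by rw [hz]; group
          rw [h7, pow_succ', mul_assoc]
      have h8 := hpow (orderOf f)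
      rw [pow_orderOf_eq_one] at h8
      have h9 : z ^ orderOf f = 1 := by
        have : u = u * z ^ orderOf f := by simpa using h8
        exact (mul_eq_left.mp this.symm)
      have h10 : orderOf z ∣ orderOf f := orderOf_dvd_of_pow_eq_one h9
      have h11 : orderOf f ∣ Nat.card R := by
        have := orderOf_dvd_natCard (⟨f, hf⟩ : R)
        rwa [Subgroup.orderOf_mk] at this
      have h12 : orderOf z ∣ Nat.card X := by
        have := orderOf_dvd_natCard (⟨z, hzX⟩ : X)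
        rwa [Subgroup.orderOf_mk] at this
      have h13 : orderOf z = 1 := Nat.eq_one_of_dvd_coprimes hcop (h10.trans h11) h12
      have h14 : z = 1 := orderOf_eq_one_iff.mp h13
      have h15 : f * u * f⁻¹ = u := by
        exact (inv_mul_eq_one.mp (show u⁻¹ * (f * u * f⁻¹) = 1 from h14)).symm
      exact h15
  obtain ⟨w, hw⟩ := key
  obtain ⟨x₁, rfl⟩ : ∃ x₁ : X, Abelianization.of x₁ = w := QuotientGroup.mk_surjective w
  have hk : ∀ k : ℕ, ∃ u : X, ((x₁ : G) * y) ^ k = (u : G) * y ^ k ∧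
      Abelianization.of u = ∏ i ∈ Finset.range k, φ (y' ^ i) (Abelianization.of x₁) := by
    intro k
    induction k with
    | zero => exact ⟨1, by simp, by simp⟩
    | succ k ih =>
      obtain ⟨u, hu1, hu2⟩ := ih
      refine ⟨u * φ₀ (y' ^ k) x₁, ?_, ?_⟩
      · rw [pow_succ, hu1]
        change (u : G) * y ^ k * ((x₁ : G) * y) = (u * (φ₀ (y' ^ k) x₁ : X) : G) * y ^ (k + 1)
        rw [hφ₀, hy'n, pow_succ]
        group
      · rw [Finset.prod_range_succ, map_mul, hu2]
        rfl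
  obtain ⟨u, hu1, hu2⟩ := hk n
  rw [hn, mul_one] at hu1
  refine ⟨x₁, x₁.2, ?_, ?_⟩
  · rw [hu1]
    intro h
    apply hw
    rw [← hu2]
    have : u = 1 := Subtype.ext h
    rw [this, map_one]
  · rw [hu1]
    exact u.2

end abel

section main

theorem main {G : Type*} [Group G] [Finite G] (N : Subgroup G) [N.Normal]
    (Fb Hb : Subgroup (G ⧸ N)) [Fb.Normal] (hHb : Cfsg.IsFrobeniusComplement Hb)
    (hker : Cfsg.frobeniusKernel Hb = (Fb : Set (G ⧸ N)))
    (hcyc : IsCyclic Hb) (hcop : (Nat.card Fb).Coprime (Nat.card N))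
    (hnot : ¬ Fb ≤ (Subgroup.centralizer (N : Set G)).map (QuotientGroup.mk' N)) :
    ∃ p : ℕ, p.Prime ∧ p ∣ Nat.card N ∧ ∃ g : G, orderOf g = p * Nat.card Hb := by
  classical
  obtain ⟨h₀, hgen⟩ := hcyc.exists_generator
  have hordh : orderOf (h₀ : G ⧸ N) = Nat.card Hb := by
    rw [Subgroup.orderOf_coe]
    exact orderOf_eq_card_of_forall_mem_zpowers hgen
  have hn0 : 0 < Nat.card Hb := Nat.card_pos
  have hh1 : (h₀ : G ⧸ N) ≠ 1 := by
    intro h
    apply hHb.1
    rw [eq_bot_iff]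
    intro x hx
    obtain ⟨k, hk⟩ := hgen ⟨x, hx⟩
    have h2 : h₀ = 1 := Subtype.ext h
    have hk' : h₀ ^ k = ⟨x, hx⟩ := hk
    rw [h2, one_zpow] at hk'
    have := congrArg Subtype.val hk'
    simpa using this.symm
  -- the prime `r`
  obtain ⟨r, hr, Rb, hRbF, hcRb, hRbL⟩ : ∃ r : ℕ, r.Prime ∧ ∃ Rb : Subgroup (G ⧸ N), Rb ≤ Fb ∧
      Nat.card Rb = r ^ (Nat.card Fb).factorization r ∧
      ¬ Rb ≤ (Subgroup.centralizer (N : Set G)).map (QuotientGroup.mk' N) := by
    by_contra hcon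
    push Not at hcon
    apply hnot
    apply le_of_exists_sylow_le
    intro p hp
    haveI : Fact p.Prime := ⟨hp⟩
    obtain ⟨Q, hQ, hc⟩ := exists_sylow_sub Fb p
    exact ⟨Q, hQ, hc, hcon p hp Q hQ hc⟩
  haveI : Fact r.Prime := ⟨hr⟩
  set a := (Nat.card Fb).factorization r with ha
  have hrN : ¬ r ∣ Nat.card N := by
    intro hd
    have ha0 : a ≠ 0 := by
      intro h0
      rw [h0, pow_zero] at hcRb
      apply hRbL
      rw [(Subgroup.card_eq_one.mp hcRb)]
      exact bot_le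
    have hrF : r ∣ Nat.card Fb := by
      by_contra hnd
      exact ha0 (Nat.factorization_eq_zero_of_not_dvd hnd)
    have := Nat.dvd_gcd hrF hd
    rw [hcop] at this
    exact hr.one_lt.ne' (Nat.dvd_one.mp this)
  obtain ⟨R, hRT, hcR, hRmap, hRN⟩ := lift_sylow N Rb hcRb hrN
  -- `R` does not centralise `N`
  have hNR : ¬ N ≤ centralizer (R : Set G) := by
    intro hle
    apply hRbL
    rw [← hRmap]
    apply Subgroup.map_mono
    rw [Subgroup.le_centralizer_iff] at hle
    exact hle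
  obtain ⟨s, hs, P, hPN, hcP, hRP, hPnot⟩ : ∃ s : ℕ, s.Prime ∧ ∃ P : Subgroup G, P ≤ N ∧
      Nat.card P = s ^ (Nat.card N).factorization s ∧ (∀ f ∈ R, Nz f P) ∧
      ¬ P ≤ centralizer (R : Set G) := by
    by_contra hcon
    push Not at hcon
    apply hNR
    apply le_of_exists_sylow_le
    intro p hp
    haveI : Fact p.Prime := ⟨hp⟩
    obtain ⟨Q, hQ, hc, hz⟩ := exists_sylow_normalized N Rb hcRb hrN R hRT hcR p
    exact ⟨Q, hQ, hc, hcon p hp Q hQ hc hz⟩
  haveI : Fact s.Prime := ⟨hs⟩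
  obtain ⟨y, hyP, hyR, f₁, hf₁, hy⟩ := exists_lift_elt N Fb Rb hRbF hcRb rfl hrN R hRT hcR P hPN hcP hRP (h₀ : G ⧸ N)
  obtain ⟨g, hg⟩ := frob_conj hHb hker hcyc h₀.2 hh1 hf₁
  have hπy : QuotientGroup.mk' N y = g * h₀ * g⁻¹ := by rw [hy, hg]
  have hord : orderOf (QuotientGroup.mk' N y) = Nat.card Hb := by
    rw [hπy, ← hordh]
    exact (MulAut.conj g).orderOf_eq _
  have hmem : y ^ Nat.card Hb ∈ N := by
    apply (QuotientGroup.eq_one_iff _).mp
    change QuotientGroup.mk' N (y ^ Nat.card Hb) = 1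
    rw [map_pow, ← hord]
    exact pow_orderOf_eq_one _
  by_cases hyn : y ^ Nat.card Hb = 1
  swap
  · exact lemO N y _ hn0 hord hmem hyn
  -- `R` acts fixed point freely
  have hfree : ∀ i, 0 < i → i < Nat.card Hb → ∀ f ∈ R, y ^ i * f = f * y ^ i → f = 1 := by
    intro i hi0 hin f hf hcomm
    have h1 : (QuotientGroup.mk' N y) ^ i * QuotientGroup.mk' N f = QuotientGroup.mk' N f * (QuotientGroup.mk' N y) ^ i := by
      rw [← map_pow, ← map_mul, hcomm, map_mul]
    rw [hπy, conj_pow] at h1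
    have hfb : QuotientGroup.mk' N f ∈ Fb := hRbF (hRT hf)
    set x' : G ⧸ N := g⁻¹ * QuotientGroup.mk' N f * g with hx'
    have hx'F : x' ∈ Fb := by
      have := ‹Fb.Normal›.conj_mem _ hfb g⁻¹
      simpa [hx'] using this
    have hc1 : (h₀ : G ⧸ N) ^ i ≠ 1 := by
      apply pow_ne_one_of_lt_orderOf hi0.ne'
      rw [hordh]
      exact hin
    have hcomm2 : x' * (h₀ : G ⧸ N) ^ i = (h₀ : G ⧸ N) ^ i * x' := by
      have h2 : g⁻¹ * (g * (h₀ : G ⧸ N) ^ i * g⁻¹ * QuotientGroup.mk' N f) * g =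
          g⁻¹ * (QuotientGroup.mk' N f * (g * (h₀ : G ⧸ N) ^ i * g⁻¹)) * g := by rw [h1]
      rw [hx']
      calc _ = g⁻¹ * (QuotientGroup.mk' N f * (g * (h₀ : G ⧸ N) ^ i * g⁻¹)) * g := by group
        _ = _ := by rw [← h2]; group
    have h3 : x' = 1 := frob_free hHb hker (Hb.pow_mem h₀.2 i) hc1 hx'F hcomm2
    have h4 : QuotientGroup.mk' N f = 1 := by
      have : QuotientGroup.mk' N f = g * x' * g⁻¹ := by rw [hx']; group
      rw [this, h3]
      group
    exact hRN f hf ((QuotientGroup.eq_one_iff f).mp h4)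
  -- the minimal subgroup
  have h0 : Good P R y P := by
    refine ⟨le_rfl, hyP, hRP, ?_⟩
    by_contra hcon
    push Not at hcon
    apply hPnot
    rw [Subgroup.le_centralizer_iff]
    intro f hf u hu
    have := hcon f hf u hu
    rw [mul_inv_eq_iff_eq_mul] at this
    exact this.symm
  obtain ⟨X, hX, htriv⟩ := exists_min_good P R y hcP h0
  have hXN : X ≤ N := hX.1.trans hPN
  have hcopRX : Nat.Coprime (Nat.card R) (Nat.card X) := by
    rw [hcR]
    exact Nat.Coprime.coprime_dvd_right (Subgroup.card_dvd_of_le hXN)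
      (Nat.Coprime.pow_left a ((Nat.Prime.coprime_iff_not_dvd hr).2 hrN))
  obtain ⟨x, hxX, hne, hxmem⟩ := exists_nonfixed_power X R y _ hn0 hyn hX.2.1 hyR hX.2.2.1 hfree hcopRX hX.2.2.2 htriv
  refine lemO N (x * y) _ hn0 ?_ (hXN hxmem) hne
  rw [map_mul, mk_eq_one' (hXN hxX), one_mul]
  exact hord

end main

end Cfsg.Agent.Lib.H14.MazFrob
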