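/-
The twelve-dimensional module of SU₃(4) over the field with five elements: a section of the permutation
module on the 65 isotropic points of the Hermitian curve over the field with sixteen elements.
-/
import Cfsg.Agent.Lib.H14.PGUnb
import Cfsg.Agent.Lib.ToddCox.F4
import Cfsg.Agent.Lib.Classical.SUOrder

set_option autoImplicit false
set_option maxRecDepth 100000
set_option maxHeartbeats 4000000
set_option linter.unusedVariables false
set_option linter.unusedSectionVars false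
set_option linter.style.haveILetI false
set_option linter.unusedSimpArgs false

namespace Cfsg.Agent.Lib.H14.U34W

open Matrix

def F16 : Type := Fin 16

namespace F16

instance : DecidableEq F16 := inferInstanceAs (DecidableEq (Fin 16))
instance : Fintype F16 := inferInstanceAs (Fintype (Fin 16))

def ofN (n : ℕ) : F16 := Fin.ofNat 16 n
def expT : List ℕ := [1, 2, 4, 8, 3, 6, 12, 11, 5, 10, 7, 14, 15, 13, 9]
def logT : List ℕ := [0, 0, 1, 4, 2, 8, 5, 10, 3, 14, 9, 7, 6, 13, 11, 12]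
def addF (a b : F16) : F16 := ofN (Nat.xor a.1 b.1)
def mulF (a b : F16) : F16 :=
  if a.1 = 0 then ofN 0 else if b.1 = 0 then ofN 0 else
    ofN (expT.getD ((logT.getD a.1 0 + logT.getD b.1 0) % 15) 0)
def invF (a : F16) : F16 :=
  if a.1 = 0 then ofN 0 else ofN (expT.getD ((15 - logT.getD a.1 0) % 15) 0)

instance : Add F16 := ⟨addF⟩
instance : Mul F16 := ⟨mulF⟩
instance : Zero F16 := ⟨ofN 0⟩
instance : One F16 := ⟨ofN 1⟩
instance : Neg F16 := ⟨id⟩
instance : Inv F16 := ⟨invF⟩

instance : Field F16 where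
  add_assoc := by decide +kernel
  zero_add := by decide +kernel
  add_zero := by decide +kernel
  add_comm := by decide +kernel
  left_distrib := by decide +kernel
  right_distrib := by decide +kernel
  zero_mul := by decide +kernel
  mul_zero := by decide +kernel
  mul_assoc := by decide +kernel
  one_mul := by decide +kernel
  mul_one := by decide +kernel
  neg_add_cancel := by decide +kernel
  mul_comm := by decide +kernel
  exists_pair_ne := ⟨ofN 0, ofN 1, by decide +kernel⟩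
  mul_inv_cancel := by decide +kernel
  inv_zero := rfl
  nsmul := nsmulRec
  zsmul := zsmulRec
  nnqsmul := _
  qsmul := _

theorem card_eq : Fintype.card F16 = 16 := rfl

def frT : List ℕ := [0, 1, 3, 2, 5, 4, 6, 7, 15, 14, 12, 13, 10, 11, 9, 8]
def fr (a : F16) : F16 := ofN (frT.getD a.1 0)

theorem fr_eq : ∀ a : F16, a ^ 4 = fr a := by decide +kernel
theorem fr_mul : ∀ a b : F16, fr (a * b) = fr a * fr b := by decide +kernel
theorem fr_ne : ∀ a : F16, a ≠ 0 → fr a ≠ 0 := by decide +kernel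
theorem frob_add : ∀ a b : F16, (a + b) ^ 4 = a ^ 4 + b ^ 4 := by decide +kernel

end F16

open F16

abbrev Vec : Type := Fin 3 → F16

def hm (u v : Vec) : F16 := u 0 * fr (v 0) + u 1 * fr (v 1) + u 2 * fr (v 2)

theorem hm_eq (u v : Vec) : Cfsg.hermForm 3 F16 4 u v = hm u v := by
  simp [Cfsg.hermForm, Fin.sum_univ_three, hm, fr_eq]

theorem hm_smul_left (c : F16) (u v : Vec) : hm (c • u) v = c * hm u v := by
  simp only [hm, Pi.smul_apply, smul_eq_mul]
  ring

theorem hm_smul_right (c : F16) (u v : Vec) : hm u (c • v) = fr c * hm u v := by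
  simp only [hm, Pi.smul_apply, smul_eq_mul, fr_mul]
  ring

def nf (v : Vec) : Vec :=
  if v 0 ≠ 0 then (v 0)⁻¹ • v else if v 1 ≠ 0 then (v 1)⁻¹ • v else (v 2)⁻¹ • v

theorem nf_eq (v : Vec) (hv : v ≠ 0) : ∃ c : F16, c ≠ 0 ∧ nf v = c • v := by
  unfold nf
  by_cases h0 : v 0 = 0
  · by_cases h1 : v 1 = 0
    · have h2 : v 2 ≠ 0 := by
        intro h2
        apply hv
        funext j
        fin_cases j
        · exact h0
        · exact h1
        · exact h2
      exact ⟨(v 2)⁻¹, inv_ne_zero h2, by simp [h0, h1]⟩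
    · exact ⟨(v 1)⁻¹, inv_ne_zero h1, by simp [h0, h1]⟩
  · exact ⟨(v 0)⁻¹, inv_ne_zero h0, by simp [h0]⟩

theorem nf_smul (c : F16) (hc : c ≠ 0) (v : Vec) : nf (c • v) = nf v := by
  unfold nf
  simp only [Pi.smul_apply, smul_eq_mul, ne_eq, mul_eq_zero, hc, false_or, not_not]
  have key : ∀ a : F16, a ≠ 0 → (a⁻¹ * c⁻¹) • (c • v) = a⁻¹ • v := by
    intro a ha
    funext j
    simp only [Pi.smul_apply, smul_eq_mul]
    field_simp
  by_cases h0 : v 0 = 0
  · by_cases h1 : v 1 = 0
    · by_cases h2 : v 2 = 0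
      · simp [h0, h1, h2]
      · simp [h0, h1, key _ h2]
    · simp [h0, h1, key _ h1]
  · simp [h0, key _ h0]

def ptKeys : List ℕ := [17, 24, 26, 28, 31, 257, 264, 266, 268, 271, 272, 292, 293, 294, 297, 302, 308, 309, 310, 313, 318, 322, 323, 327, 331, 333, 338, 339, 343, 347, 349, 354, 355, 359, 363, 365, 372, 373, 374, 377, 382, 384, 402, 403, 407, 411, 413, 416, 436, 437, 438, 441, 446, 448, 468, 469, 470, 473, 478, 482, 483, 487, 491, 493, 496]
def dec (k : ℕ) : Vec := ![ofN (k / 256), ofN (k / 16), ofN k]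
def pts (i : Fin 65) : Vec := dec (ptKeys.getD i.1 0)
def key (v : Vec) : ℕ := 256 * (v 0).1 + 16 * (v 1).1 + (v 2).1
def idx (v : Vec) : Fin 65 := Fin.ofNat 65 (ptKeys.idxOf (key (nf v)))

theorem idx_spec' : ∀ a b c : F16, (a ≠ 0 ∨ b ≠ 0 ∨ c ≠ 0) → hm ![a, b, c] ![a, b, c] = 0 →
    pts (idx ![a, b, c]) = nf ![a, b, c] := by decide +kernel

theorem vec_eta (v : Vec) : v = ![v 0, v 1, v 2] := by
  funext j
  fin_cases j <;> rfl

theorem idx_spec (v : Vec) (hv : v ≠ 0) (h : hm v v = 0) : pts (idx v) = nf v := by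
  have h1 : v 0 ≠ 0 ∨ v 1 ≠ 0 ∨ v 2 ≠ 0 := by
    by_contra hcon
    push Not at hcon
    apply hv
    funext j
    fin_cases j
    · exact hcon.1
    · exact hcon.2.1
    · exact hcon.2.2
  have h2 := idx_spec' (v 0) (v 1) (v 2) h1 (by rw [← vec_eta]; exact h)
  rwa [← vec_eta] at h2

theorem idx_smul (c : F16) (hc : c ≠ 0) (v : Vec) : idx (c • v) = idx v := by
  unfold idx
  rw [nf_smul c hc]

theorem pts_iso : ∀ i : Fin 65, hm (pts i) (pts i) = 0 := by decide +kernel
theorem pts_ne : ∀ i : Fin 65, pts i ≠ 0 := by decide +kernel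
theorem idx_pts : ∀ i : Fin 65, idx (pts i) = i := by decide +kernel

abbrev G : Type := ↥(Cfsg.SU 3 F16 4)

def M (g : G) : Matrix (Fin 3) (Fin 3) F16 := g.1.1

theorem M_mul (g h : G) : M (g * h) = M g * M h := rfl
theorem M_one : M 1 = 1 := rfl

theorem M_hm (g : G) (u v : Vec) : hm (M g *ᵥ u) (M g *ᵥ v) = hm u v := by
  rw [← hm_eq, ← hm_eq]
  exact g.2 u v

theorem M_inv_mul (g : G) (v : Vec) : M g⁻¹ *ᵥ (M g *ᵥ v) = v := by
  rw [Matrix.mulVec_mulVec, ← M_mul, inv_mul_cancel, M_one, Matrix.one_mulVec]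

theorem M_mul_inv (g : G) (v : Vec) : M g *ᵥ (M g⁻¹ *ᵥ v) = v := by
  rw [Matrix.mulVec_mulVec, ← M_mul, mul_inv_cancel, M_one, Matrix.one_mulVec]

theorem M_ne (g : G) {v : Vec} (hv : v ≠ 0) : M g *ᵥ v ≠ 0 := by
  intro h
  apply hv
  rw [← M_inv_mul g v, h, Matrix.mulVec_zero]

/-- The action on the isotropic points. -/
def actP (g : G) (i : Fin 65) : Fin 65 := idx (M g *ᵥ pts i)

theorem actP_spec (g : G) (i : Fin 65) : ∃ c : F16, c ≠ 0 ∧ pts (actP g i) = c • (M g *ᵥ pts i) := by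
  have h1 : M g *ᵥ pts i ≠ 0 := M_ne g (pts_ne i)
  have h2 : hm (M g *ᵥ pts i) (M g *ᵥ pts i) = 0 := by rw [M_hm]; exact pts_iso i
  obtain ⟨c, hc, h3⟩ := nf_eq _ h1
  exact ⟨c, hc, by rw [actP, idx_spec _ h1 h2, h3]⟩

theorem actP_one (i : Fin 65) : actP 1 i = i := by
  rw [actP, M_one, Matrix.one_mulVec, idx_pts]

theorem actP_mul (g h : G) (i : Fin 65) : actP (g * h) i = actP g (actP h i) := by
  obtain ⟨c, hc, h1⟩ := actP_spec h i
  rw [actP, actP, h1, Matrix.mulVec_smul, idx_smul c hc, M_mul, Matrix.mulVec_mulVec]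

def perm (g : G) : Equiv.Perm (Fin 65) where
  toFun := actP g
  invFun := actP g⁻¹
  left_inv i := by rw [← actP_mul, inv_mul_cancel, actP_one]
  right_inv i := by rw [← actP_mul, mul_inv_cancel, actP_one]

/-- The kernel of the incidence matrix of points and secant lines. -/
def inW (f : Fin 65 → ZMod 5) : Prop :=
  ∀ y : Vec, hm y y ≠ 0 → ∑ i, (if hm (pts i) y = 0 then f i else 0) = 0

theorem inW_zero : inW 0 := by
  intro y _
  simp

theorem inW_add {f g : Fin 65 → ZMod 5} (hf : inW f) (hg : inW g) : inW (f + g) := by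
  intro y hy
  have : ∑ i, (if hm (pts i) y = 0 then (f + g) i else 0) =
      ∑ i, (if hm (pts i) y = 0 then f i else 0) + ∑ i, (if hm (pts i) y = 0 then g i else 0) := by
    rw [← Finset.sum_add_distrib]
    refine Finset.sum_congr rfl fun i _ => ?_
    by_cases h : hm (pts i) y = 0 <;> simp [h]
  rw [this, hf y hy, hg y hy, add_zero]

theorem inW_neg {f : Fin 65 → ZMod 5} (hf : inW f) : inW (-f) := by
  intro y hy
  have : ∑ i, (if hm (pts i) y = 0 then (-f) i else 0) = - ∑ i, (if hm (pts i) y = 0 then f i else 0) := by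
    rw [← Finset.sum_neg_distrib]
    refine Finset.sum_congr rfl fun i _ => ?_
    by_cases h : hm (pts i) y = 0 <;> simp [h]
  rw [this, hf y hy, neg_zero]

theorem inW_comp (g : G) {f : Fin 65 → ZMod 5} (hf : inW f) : inW (fun i => f (actP g i)) := by
  intro y hy
  have hy' : hm (M g *ᵥ y) (M g *ᵥ y) ≠ 0 := by rwa [M_hm]
  have h1 := hf _ hy'
  rw [← Equiv.sum_comp (perm g)] at h1
  refine Eq.trans ?_ h1
  refine Finset.sum_congr rfl fun i _ => ?_
  have h2 : hm (pts i) y = 0 ↔ hm (pts (perm g i)) (M g *ᵥ y) = 0 := by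
    obtain ⟨c, hc, h3⟩ := actP_spec g i
    change _ ↔ hm (pts (actP g i)) _ = 0
    rw [h3, hm_smul_left, M_hm]
    simp [hc]
  by_cases h : hm (pts i) y = 0
  · rw [if_pos h, if_pos (h2.1 h)]
    rfl
  · rw [if_neg h, if_neg (fun e => h (h2.2 e))]

/-- The section: kernel modulo constants, realised by the differences of kernel vectors. -/
def VV : AddSubgroup (Fin 65 → Fin 65 → ZMod 5) where
  carrier := {d | ∃ f, inW f ∧ ∀ a b, d a b = f a - f b}
  zero_mem' := ⟨0, inW_zero, fun a b => by simp⟩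
  add_mem' := by
    rintro d e ⟨f, hf, hdf⟩ ⟨f', hf', hef⟩
    refine ⟨f + f', inW_add hf hf', fun a b => ?_⟩
    simp only [Pi.add_apply, hdf, hef]
    ring
  neg_mem' := by
    rintro d ⟨f, hf, hdf⟩
    refine ⟨-f, inW_neg hf, fun a b => ?_⟩
    simp only [Pi.neg_apply, hdf]
    ring

instance : DistribMulAction G ↥VV where
  smul g d := ⟨fun a b => d.1 (actP g⁻¹ a) (actP g⁻¹ b), by
    obtain ⟨f, hf, hdf⟩ := d.2
    exact ⟨fun i => f (actP g⁻¹ i), inW_comp g⁻¹ hf, fun a b => hdf _ _⟩⟩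
  one_smul d := by
    apply Subtype.ext
    funext a b
    change d.1 (actP 1⁻¹ a) (actP 1⁻¹ b) = d.1 a b
    rw [inv_one, actP_one, actP_one]
  mul_smul g h d := by
    apply Subtype.ext
    funext a b
    change d.1 (actP (g * h)⁻¹ a) (actP (g * h)⁻¹ b) = d.1 (actP h⁻¹ (actP g⁻¹ a)) (actP h⁻¹ (actP g⁻¹ b))
    rw [_root_.mul_inv_rev, actP_mul, actP_mul]
  smul_zero g := rfl
  smul_add g d e := rfl

theorem smul_apply (g : G) (d : ↥VV) (a b : Fin 65) : (g • d).1 a b = d.1 (actP g⁻¹ a) (actP g⁻¹ b) := rfl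

/-! Explicit elements. -/

def m3 (L : List ℕ) : Matrix (Fin 3) (Fin 3) F16 := Matrix.of fun i j => ofN (L.getD (3 * i.1 + j.1) 0)

def mkSU (A : Matrix (Fin 3) (Fin 3) F16) (hd : A.det = 1)
    (hu : ∀ i j : Fin 3, ∑ k, A k i * (A k j) ^ 4 = if i = j then 1 else 0) : G :=
  ⟨⟨A, hd⟩, Cfsg.Agent.Lib.ToddCox.mem_SU_of_unitary F16.frob_add (by norm_num) ⟨A, hd⟩ hu⟩

theorem M_mkSU (A : Matrix (Fin 3) (Fin 3) F16) (hd) (hu) : M (mkSU A hd hu) = A := rfl

theorem M_inj {g : G} (h : M g = 1) : g = 1 := by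
  apply Subtype.ext
  apply Subtype.ext
  exact h

theorem M_pow (g : G) (n : ℕ) : M (g ^ n) = M g ^ n := by
  induction n with
  | zero => simp [M_one]
  | succ n ih => rw [pow_succ, pow_succ, M_mul, ih]

def A13 : Matrix (Fin 3) (Fin 3) F16 := m3 [15, 15, 12, 13, 15, 7, 2, 15, 11]
def A10 : Matrix (Fin 3) (Fin 3) F16 := m3 [10, 4, 5, 15, 14, 6, 15, 8, 8]
def A15 : Matrix (Fin 3) (Fin 3) F16 := m3 [0, 4, 11, 12, 0, 0, 0, 11, 4]

theorem det3 (A : Matrix (Fin 3) (Fin 3) F16) (h : A 0 0 * A 1 1 * A 2 2 - A 0 0 * A 1 2 * A 2 1 - A 0 1 * A 1 0 * A 2 2 +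
      A 0 1 * A 1 2 * A 2 0 + A 0 2 * A 1 0 * A 2 1 - A 0 2 * A 1 1 * A 2 0 = 1) : A.det = 1 := by
  rw [Matrix.det_fin_three]
  exact h

def x13 : G := mkSU A13 (det3 _ (by decide +kernel)) (by decide +kernel)
def x10 : G := mkSU A10 (det3 _ (by decide +kernel)) (by decide +kernel)
def x15 : G := mkSU A15 (det3 _ (by decide +kernel)) (by decide +kernel)

theorem order_x13 : orderOf x13 = 13 := by
  haveI : Fact (Nat.Prime 13) := ⟨by norm_num⟩
  apply orderOf_eq_prime
  · apply M_inj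
    rw [M_pow]
    change A13 ^ 13 = 1
    decide +kernel
  · intro h
    have h2 : M x13 = 1 := by rw [h, M_one]
    change A13 = 1 at h2
    revert h2
    decide +kernel

theorem order_x10 : orderOf x10 = 10 := by
  apply orderOf_eq_of_pow_and_pow_div_prime (by norm_num)
  · apply M_inj
    rw [M_pow]
    change A10 ^ 10 = 1
    decide +kernel
  · intro p hp hd h
    have h1 : p ∣ 2 * 5 := hd
    have h23 : p = 2 ∨ p = 5 := by
      rcases (Nat.Prime.dvd_mul hp).1 h1 with h2 | h2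
      · left; exact (Nat.prime_dvd_prime_iff_eq hp Nat.prime_two).1 h2
      · right; exact (Nat.prime_dvd_prime_iff_eq hp (by norm_num)).1 h2
    have h2 : M (x10 ^ (10 / p)) = 1 := by rw [h, M_one]
    rw [M_pow] at h2
    change A10 ^ (10 / p) = 1 at h2
    rcases h23 with rfl | rfl
    · revert h2; decide +kernel
    · revert h2; decide +kernel

theorem order_x15 : orderOf x15 = 15 := by
  apply orderOf_eq_of_pow_and_pow_div_prime (by norm_num)
  · apply M_inj
    rw [M_pow]
    change A15 ^ 15 = 1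
    decide +kernel
  · intro p hp hd h
    have h1 : p ∣ 3 * 5 := hd
    have h23 : p = 3 ∨ p = 5 := by
      rcases (Nat.Prime.dvd_mul hp).1 h1 with h2 | h2
      · left; exact (Nat.prime_dvd_prime_iff_eq hp Nat.prime_three).1 h2
      · right; exact (Nat.prime_dvd_prime_iff_eq hp (by norm_num)).1 h2
    have h2 : M (x15 ^ (15 / p)) = 1 := by rw [h, M_one]
    rw [M_pow] at h2
    change A15 ^ (15 / p) = 1 at h2
    rcases h23 with rfl | rfl
    · revert h2; decide +kernel
    · revert h2; decide +kernel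

/-! The order thirteen element has no nonzero fixed vector on the section. -/

def sigT : List ℕ := [46, 28, 36, 1, 52, 33, 5, 10, 0, 38, 4, 25, 60, 47, 48, 13, 8, 30, 49, 14, 32, 63, 55, 44, 7, 50, 51, 35, 53, 40, 24, 2, 9, 54, 29, 41, 43, 56, 15, 34, 3, 37, 18, 20, 19, 16, 17, 62, 12, 64, 61, 27, 58, 57, 39, 11, 22, 6, 45, 31, 21, 26, 59, 42, 23]
def orbT : List ℕ := [0, 1, 2, 1, 0, 1, 1, 0, 0, 2, 0, 3, 4, 2, 4, 2, 0, 0, 4, 4, 2, 4, 3, 4, 0, 3, 3, 3, 1, 1, 0, 2, 2, 1, 1, 3, 2, 3, 2, 1, 1, 3, 4, 2, 4, 0, 0, 2, 4, 4, 3, 3, 0, 1, 1, 3, 3, 1, 0, 2, 4, 3, 2, 4, 4]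
def repT : List ℕ := [0, 1, 2, 11, 12]
def distT : List ℕ := [0, 0, 0, 12, 7, 5, 4, 5, 12, 5, 6, 0, 0, 8, 11, 7, 11, 2, 5, 10, 3, 2, 11, 8, 4, 1, 4, 6, 1, 10, 3, 12, 4, 6, 9, 7, 1, 9, 6, 8, 11, 8, 4, 2, 9, 10, 1, 9, 12, 6, 2, 5, 8, 2, 7, 12, 10, 3, 9, 11, 1, 3, 10, 3, 7]

def sig (i : Fin 65) : Fin 65 := Fin.ofNat 65 (sigT.getD i.1 0)
def orb (i : Fin 65) : Fin 5 := Fin.ofNat 5 (orbT.getD i.1 0)
def rep (k : Fin 5) : Fin 65 := Fin.ofNat 65 (repT.getD k.1 0)
def dist (i : Fin 65) : ℕ := distT.getD i.1 0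

theorem actP_x13 : ∀ i : Fin 65, actP x13 i = sig i := by
  intro i
  change idx (A13 *ᵥ pts i) = sig i
  revert i
  decide +kernel

theorem sig_13 : ∀ i : Fin 65, sig^[13] i = i := by decide +kernel

theorem sig_dist : ∀ i : Fin 65, sig^[dist i] (rep (orb i)) = i := by decide +kernel

def y1 : Vec := dec 1
def y2 : Vec := dec 16
def y3 : Vec := dec 18
def y4 : Vec := dec 21

/-- Evaluate the four linear conditions on a function which is constant on the orbits. -/
def Chk5 (u0 u1 u2 u3 u4 : ZMod 5) : Prop :=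
    (∑ i, (if hm (pts i) y1 = 0 then ![u0, u1, u2, u3, u4] (orb i) else 0)) = 0 →
    (∑ i, (if hm (pts i) y2 = 0 then ![u0, u1, u2, u3, u4] (orb i) else 0)) = 0 →
    (∑ i, (if hm (pts i) y3 = 0 then ![u0, u1, u2, u3, u4] (orb i) else 0)) = 0 →
    (∑ i, (if hm (pts i) y4 = 0 then ![u0, u1, u2, u3, u4] (orb i) else 0)) = 0 →
    u0 = u1 ∧ u1 = u2 ∧ u2 = u3 ∧ u3 = u4

instance (u0 u1 u2 u3 u4 : ZMod 5) : Decidable (Chk5 u0 u1 u2 u3 u4) := by
  unfold Chk5
  infer_instance

theorem chk5 : ∀ u0 u1 u2 u3 u4 : ZMod 5, Chk5 u0 u1 u2 u3 u4 := by decide +kernel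

theorem y_noniso : hm y1 y1 ≠ 0 ∧ hm y2 y2 ≠ 0 ∧ hm y3 y3 ≠ 0 ∧ hm y4 y4 ≠ 0 := by decide +kernel

theorem const_of_fix (f : Fin 65 → ZMod 5) (hf : inW f) (hs : ∀ a, f (sig a) = f a) (a b : Fin 65) :
    f a = f b := by
  have hit : ∀ (n : ℕ) (a : Fin 65), f (sig^[n] a) = f a := by
    intro n
    induction n with
    | zero => intro a; rfl
    | succ n ih =>
      intro a
      rw [Function.iterate_succ_apply', hs, ih]
  have hu : ∀ i, f i = ![f (rep 0), f (rep 1), f (rep 2), f (rep 3), f (rep 4)] (orb i) := by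
    intro i
    have h1 : f i = f (rep (orb i)) := by
      conv_lhs => rw [← sig_dist i]
      exact hit _ _
    rw [h1]
    generalize orb i = k
    fin_cases k <;> rfl
  obtain ⟨n1, n2, n3, n4⟩ := y_noniso
  have hs' : ∀ y, hm y y ≠ 0 → ∑ i, (if hm (pts i) y = 0 then
      ![f (rep 0), f (rep 1), f (rep 2), f (rep 3), f (rep 4)] (orb i) else 0) = 0 := by
    intro y hy
    refine Eq.trans ?_ (hf y hy)
    refine Finset.sum_congr rfl fun i _ => ?_
    rw [← hu i]
  obtain ⟨e1, e2, e3, e4⟩ := chk5 _ _ _ _ _ (hs' y1 n1) (hs' y2 n2) (hs' y3 n3) (hs' y4 n4)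
  have hall : ∀ k : Fin 5, ![f (rep 0), f (rep 1), f (rep 2), f (rep 3), f (rep 4)] k = f (rep 0) := by
    intro k
    fin_cases k
    · rfl
    · exact e1.symm
    · exact (e1.trans e2).symm
    · exact (e1.trans (e2.trans e3)).symm
    · exact (e1.trans (e2.trans (e3.trans e4))).symm
  rw [hu a, hu b, hall, hall]

theorem thirteen_mul : ∀ c : ZMod 5, (13 : ℕ) * c = 0 → c = 0 := by decide +kernel

theorem fix_x13 (d : ↥VV) (h : x13 • d = d) : d = 0 := by
  obtain ⟨f, hf, hdf⟩ := d.2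
  have h1 : x13⁻¹ • d = d := inv_smul_eq_iff.2 h.symm
  have h2 : ∀ a b, f (sig a) - f (sig b) = f a - f b := by
    intro a b
    have h3 := congrArg (fun e : ↥VV => e.1 a b) h1
    simp only [smul_apply, inv_inv, actP_x13] at h3
    rw [hdf, hdf] at h3
    exact h3
  have h3 : ∀ a, f (sig a) = f a + (f (sig 0) - f 0) := by
    intro a
    have := h2 a 0
    linear_combination this
  set c := f (sig 0) - f 0 with hc
  have h4 : ∀ (n : ℕ) (a : Fin 65), f (sig^[n] a) = f a + n * c := by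
    intro n
    induction n with
    | zero => intro a; simp
    | succ n ih =>
      intro a
      rw [Function.iterate_succ_apply', h3, ih]
      push_cast
      ring
  have h5 : (13 : ℕ) * c = 0 := by
    have := h4 13 0
    rw [sig_13] at this
    have h6 : f 0 + (13 : ℕ) * c = f 0 + 0 := by rw [← this, add_zero]
    exact add_left_cancel h6
  have h6 := thirteen_mul c h5
  have h7 : ∀ a, f (sig a) = f a := by
    intro a
    rw [h3, h6, add_zero]
  apply Subtype.ext
  funext a b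
  rw [hdf, const_of_fix f hf h7 a b, sub_self]
  rfl

/-! The section is nonzero. -/

def f0T : List ℕ := [0, 3, 3, 4, 0, 2, 1, 0, 2, 0, 0, 1, 4, 0, 2, 3, 1, 3, 0, 1, 0, 0, 0, 4, 3, 3, 0, 1, 3, 2, 4, 2, 0, 4, 4, 0, 1, 1, 4, 2, 2, 0, 3, 4, 4, 1, 3, 0, 2, 2, 1, 0, 0, 0, 0, 0, 0, 0, 0, 0, 0, 0, 0, 0, 0]
def f0 (i : Fin 65) : ZMod 5 := ((f0T.getD i.1 0 : ℕ) : ZMod 5)

theorem f0_norm : ∀ a b c : F16, nf ![a, b, c] = ![a, b, c] → hm ![a, b, c] ![a, b, c] ≠ 0 →
    ∑ i, (if hm (pts i) ![a, b, c] = 0 then f0 i else 0) = 0 := by decide +kernel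

theorem inW_f0 : inW f0 := by
  intro y hy
  have hy0 : y ≠ 0 := by
    rintro rfl
    apply hy
    simp [hm, show (0 : Vec) 0 = 0 from rfl]
  obtain ⟨c, hc, h1⟩ := nf_eq y hy0
  have h2 : nf (nf y) = nf y := by
    rw [h1, nf_smul c hc, h1]
  have h3 : hm (nf y) (nf y) ≠ 0 := by
    rw [h1, hm_smul_left, hm_smul_right]
    exact mul_ne_zero hc (mul_ne_zero (fr_ne c hc) hy)
  have h4 := f0_norm (nf y 0) (nf y 1) (nf y 2) (by rw [← vec_eta]; exact h2) (by rw [← vec_eta]; exact h3)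
  rw [← vec_eta] at h4
  refine Eq.trans ?_ h4
  refine Finset.sum_congr rfl fun i _ => ?_
  have h5 : hm (pts i) y = 0 ↔ hm (pts i) (nf y) = 0 := by
    rw [h1, hm_smul_right]
    simp [fr_ne c hc]
  by_cases h : hm (pts i) y = 0
  · rw [if_pos h, if_pos (h5.1 h)]
  · rw [if_neg h, if_neg (fun e => h (h5.2 e))]

def d0 : ↥VV := ⟨fun a b => f0 a - f0 b, f0, inW_f0, fun _ _ => rfl⟩

theorem d0_ne : d0 ≠ 0 := by
  intro h
  have h1 := congrArg (fun e : ↥VV => e.1 0 1) h
  change f0 0 - f0 1 = 0 at h1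
  revert h1
  decide +kernel

instance : Nontrivial ↥VV := ⟨⟨d0, 0, d0_ne⟩⟩

instance : Finite G := by
  change Finite ↥(Cfsg.SU 3 F16 4)
  infer_instance

instance : Finite ↥VV := by
  infer_instance

theorem five_smul (d : ↥VV) : 5 • d = 0 := by
  apply Subtype.ext
  funext a b
  change 5 • (d.1 a b) = 0
  generalize d.1 a b = z
  revert z
  decide +kernel

theorem card_G : Nat.card G = 62400 := by
  have h := Cfsg.Agent.Lib.Classical.card_su (F := F16) (q := 4) (n := 3) (by rw [F16.card_eq]; norm_num) (by norm_num)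
  have h2 : (4 + 1) * Nat.card ↥(Cfsg.SU 3 F16 4) = (4 + 1) * 62400 := by
    rw [h]
    decide +kernel
  exact Nat.eq_of_mul_eq_mul_left (by norm_num) h2

theorem fix_sylow {G : Type*} [Group G] [Finite G] {V : Type*} [AddMonoid V] [DistribMulAction G V] {s : ℕ}
    (hs : s.Prime) (hc : ¬ s ^ 2 ∣ Nat.card G) {x : G} (hx : orderOf x = s)
    (hfpf : ∀ u : V, x • u = u → u = 0) {g : G} (hg : orderOf g = s) (v : V) (hv : g • v = v) : v = 0 := by
  classical
  haveI : Fact s.Prime := ⟨hs⟩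
  have hdvd : s ∣ Nat.card G := by
    rw [← hx]
    exact orderOf_dvd_natCard x
  have hfac : (Nat.card G).factorization s = 1 := by
    have h0 : Nat.card G ≠ 0 := Nat.card_pos.ne'
    have h1 : 1 ≤ (Nat.card G).factorization s := (hs.dvd_iff_one_le_factorization h0).1 hdvd
    have h2 : ¬ 2 ≤ (Nat.card G).factorization s := by
      intro h
      apply hc
      exact (hs.pow_dvd_iff_le_factorization h0).2 h
    omega
  have hX : Nat.card (Subgroup.zpowers x) = s ^ (Nat.card G).factorization s := by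
    rw [Nat.card_zpowers, hx, hfac, pow_one]
  have hY : Nat.card (Subgroup.zpowers g) = s ^ (Nat.card G).factorization s := by
    rw [Nat.card_zpowers, hg, hfac, pow_one]
  let P : Sylow s G := Sylow.ofCard _ hX
  let Q : Sylow s G := Sylow.ofCard _ hY
  obtain ⟨c, hc'⟩ := MulAction.exists_smul_eq G P Q
  have hmem : c * x * c⁻¹ ∈ Subgroup.zpowers g := by
    have h1 : c * x * c⁻¹ ∈ (c • P : Sylow s G) := by
      rw [Sylow.smul_def]
      change _ ∈ Subgroup.map _ _
      refine Subgroup.mem_map.2 ⟨x, Subgroup.mem_zpowers x, rfl⟩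
    rw [hc'] at h1
    exact h1
  obtain ⟨i, hi⟩ := Subgroup.mem_zpowers_iff.1 hmem
  have h1 : g ∈ MulAction.stabilizer G v := hv
  have h2 : (c * x * c⁻¹) • v = v := by
    rw [← hi]
    exact (MulAction.stabilizer G v).zpow_mem h1 i
  have h3 : x • (c⁻¹ • v) = c⁻¹ • v := by
    calc x • (c⁻¹ • v) = c⁻¹ • ((c * x * c⁻¹) • v) := by
          simp only [smul_smul]
          congr 1
          group
      _ = c⁻¹ • v := by rw [h2]
  have h4 := hfpf _ h3
  rw [← smul_inv_smul c v, h4, smul_zero]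

theorem hMG (s : ℕ) (hs : s.Prime) (hs5 : s ≠ 5) (g : G) (hg : orderOf g = s) (v : ↥VV) (hv : v ≠ 0)
    (hfix : g • v = v) : ∃ x : G, orderOf x = 5 * s := by
  have hd : s ∣ 62400 := by
    rw [← card_G, ← hg]
    exact orderOf_dvd_natCard g
  have h1 : (62400 : ℕ) = 2 ^ 6 * 3 * 5 ^ 2 * 13 := by norm_num
  rw [h1] at hd
  have hcases : s = 2 ∨ s = 3 ∨ s = 13 := by
    rcases (Nat.Prime.dvd_mul hs).1 hd with h | h
    · rcases (Nat.Prime.dvd_mul hs).1 h with h | h
      · rcases (Nat.Prime.dvd_mul hs).1 h with h | h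
        · left; exact (Nat.prime_dvd_prime_iff_eq hs Nat.prime_two).1 (hs.dvd_of_dvd_pow h)
        · right; left; exact (Nat.prime_dvd_prime_iff_eq hs Nat.prime_three).1 h
      · exact absurd ((Nat.prime_dvd_prime_iff_eq hs (by norm_num)).1 (hs.dvd_of_dvd_pow h)) hs5
    · right; right; exact (Nat.prime_dvd_prime_iff_eq hs (by norm_num)).1 h
  rcases hcases with rfl | rfl | rfl
  · exact ⟨x10, order_x10⟩
  · exact ⟨x15, order_x15⟩
  · exfalso
    apply hv
    exact fix_sylow (by norm_num) (by rw [card_G]; norm_num) order_x13 fix_x13 hg v hfix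

section modact

variable {G : Type*} [Group G] {V : Type*} [AddCommGroup V] [DistribMulAction G V] (k : ℕ)

def actM (g : G) : MulAut (Multiplicative (Fin k → V)) where
  toFun v := Multiplicative.ofAdd (fun i => g • (Multiplicative.toAdd v i))
  invFun v := Multiplicative.ofAdd (fun i => g⁻¹ • (Multiplicative.toAdd v i))
  left_inv v := by
    apply Multiplicative.toAdd.injective
    funext i
    simp
  right_inv v := by
    apply Multiplicative.toAdd.injective
    funext i
    simp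
  map_mul' u v := by
    apply Multiplicative.toAdd.injective
    funext i
    simp [smul_add]

def actH : G →* MulAut (Multiplicative (Fin k → V)) where
  toFun g := actM k g
  map_one' := by
    refine MulEquiv.ext fun v => ?_
    apply Multiplicative.toAdd.injective
    funext i
    simp [actM]
  map_mul' a b := by
    refine MulEquiv.ext fun v => ?_
    apply Multiplicative.toAdd.injective
    funext i
    simp [actM, mul_smul]

end modact

/-- **Unbounded extensions with the same prime graph**, for a module. -/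
theorem unbounded_mod {G : Type} [Group G] [Finite G] {V : Type} [AddCommGroup V] [Finite V] [Nontrivial V]
    [DistribMulAction G V] (p : ℕ) [hp : Fact p.Prime] (hV : ∀ v : V, p • v = 0) (hpG : p ∣ Nat.card G)
    (hM : ∀ s, s.Prime → s ≠ p → ∀ g : G, orderOf g = s → ∀ v : V, v ≠ 0 → g • v = v →
      ∃ x : G, orderOf x = p * s) (N₀ : ℕ) :
    ∃ (H : Type) (_ : Group H) (_ : Finite H), N₀ < Nat.card H ∧
      (∀ q : ℕ, q.Prime → (q ∣ Nat.card G ↔ q ∣ Nat.card H)) ∧
      (∀ r s : ℕ, r.Prime → s.Prime → r ≠ s → ((∃ g : G, orderOf g = r * s) ↔ ∃ h : H, orderOf h = r * s)) := by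
  classical
  set N : Type := Multiplicative (Fin N₀ → V) with hN
  let φ : G →* MulAut N := actH N₀
  have hcardN : Nat.card N = (Nat.card V) ^ N₀ := by
    rw [hN]
    change Nat.card (Fin N₀ → V) = _
    rw [Nat.card_fun]
    simp
  have hNp : ∀ v : N, v ^ p = 1 := by
    intro v
    apply Multiplicative.toAdd.injective
    have h1 : Multiplicative.toAdd (v ^ p) = p • Multiplicative.toAdd v := toAdd_pow v p
    rw [h1]
    funext i
    exact hV _
  haveI hNf : Finite N := by
    rw [hN]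
    exact (inferInstance : Finite (Fin N₀ → V))
  refine ⟨N ⋊[φ] G, inferInstance, ?_, ?_, ?_, ?_⟩
  · exact Finite.of_equiv _ (SemidirectProduct.equivProd (φ := φ)).symm
  · rw [Nat.card_congr (SemidirectProduct.equivProd (φ := φ)), Nat.card_prod, hcardN]
    have h2 : 2 ≤ Nat.card V := Finite.one_lt_card
    have h3 : N₀ < (Nat.card V) ^ N₀ := by
      calc N₀ < 2 ^ N₀ := Nat.lt_two_pow_self
        _ ≤ (Nat.card V) ^ N₀ := Nat.pow_le_pow_left h2 _
    have h4 : 1 ≤ Nat.card G := Nat.card_pos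
    nlinarith
  · intro q hq
    rw [Nat.card_congr (SemidirectProduct.equivProd (φ := φ)), Nat.card_prod, hcardN]
    constructor
    · intro h
      exact dvd_mul_of_dvd_right h _
    · intro h
      rcases (Nat.Prime.dvd_mul hq).1 h with h1 | h1
      · have h2 := hq.dvd_of_dvd_pow h1
        haveI : Fact q.Prime := ⟨hq⟩
        obtain ⟨x, hx⟩ := exists_prime_addOrderOf_dvd_card' q h2
        have h3 : q ∣ p := by
          rw [← hx]
          exact addOrderOf_dvd_of_nsmul_eq_zero (hV x)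
        rw [(Nat.prime_dvd_prime_iff_eq hq hp.out).1 h3]
        exact hpG
      · exact h1
  · intro r s hr hs hrs
    refine Cfsg.Agent.Lib.H14.PGUnb.order_iff (p := p) ?_ hNp hp.out hr hs hrs
    intro s' hs' hs'p g hg w hw hfix
    have : ∃ i, Multiplicative.toAdd w i ≠ 0 := by
      by_contra hcon
      push Not at hcon
      apply hw
      apply Multiplicative.toAdd.injective
      funext i
      exact hcon i
    obtain ⟨i, hi⟩ := this
    refine hM s' hs' hs'p g hg _ hi ?_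
    have := congrArg (fun z : N => Multiplicative.toAdd z i) hfix
    exact this

theorem main (N₀ : ℕ) :
    ∃ (H : Type) (_ : Group H) (_ : Finite H), N₀ < Nat.card H ∧
      (∀ q : ℕ, q.Prime → (q ∣ Nat.card G ↔ q ∣ Nat.card H)) ∧
      (∀ r s : ℕ, r.Prime → s.Prime → r ≠ s → ((∃ g : G, orderOf g = r * s) ↔ ∃ h : H, orderOf h = r * s)) := by
  haveI : Fact (Nat.Prime 5) := ⟨by norm_num⟩
  exact unbounded_mod (V := ↥VV) 5 five_smul (by rw [card_G]; norm_num) hMG N₀

/-! Transport. -/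

section transport

open Cfsg

variable {F F' : Type*} [Field F] [Field F']

theorem herm_map' (τ : F ≃+* F') (n q : ℕ) (u v : Fin n → F) :
    hermForm n F' q (fun i => τ (u i)) (fun i => τ (v i)) = τ (hermForm n F q u v) := by
  simp [hermForm, map_sum, map_mul, map_pow]

noncomputable def suHom' (σ : F ≃+* F') (n q : ℕ) : ↥(SU n F q) →* ↥(SU n F' q) where
  toFun x := ⟨Matrix.SpecialLinearGroup.map σ.toRingHom x.1, by
    intro u' v'
    have hmv : ∀ u : Fin n → F,
        (slToMat n F' (Matrix.SpecialLinearGroup.map σ.toRingHom x.1)) *ᵥ (fun i => σ (u i)) =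
          fun i => σ (((slToMat n F x.1) *ᵥ u) i) := by
      intro u
      funext i
      simp only [Matrix.mulVec, dotProduct, map_sum, map_mul]
      rfl
    have hu : u' = fun i => σ (σ.symm (u' i)) := by simp
    have hv : v' = fun i => σ (σ.symm (v' i)) := by simp
    rw [hu, hv, hmv, hmv, herm_map', herm_map']
    congr 1
    exact x.2 _ _⟩
  map_one' := by
    apply Subtype.ext
    exact map_one (Matrix.SpecialLinearGroup.map σ.toRingHom)
  map_mul' x y := by
    apply Subtype.ext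
    exact map_mul (Matrix.SpecialLinearGroup.map σ.toRingHom) x.1 y.1

noncomputable def suEquiv' (σ : F ≃+* F') (n q : ℕ) : ↥(SU n F q) ≃* ↥(SU n F' q) :=
  MonoidHom.toMulEquiv (suHom' σ n q) (suHom' σ.symm n q)
    (by
      ext x i j
      show σ.symm (σ (x.1.1 i j)) = x.1.1 i j
      simp)
    (by
      ext x i j
      show σ (σ.symm (x.1.1 i j)) = x.1.1 i j
      simp)

theorem psu_equiv_su {F : Type*} [Field F] [Fintype F] (hF : Fintype.card F = 16) :
    Nonempty (PSU 3 F 4 ≃* G) := by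
  classical
  have hF' : Fintype.card F = 4 ^ 2 := by rw [hF]; norm_num
  have hZ : Nat.card (Subgroup.center (SU 3 F 4)) = Nat.gcd 3 (4 + 1) :=
    Cfsg.Agent.Lib.Classical.card_center_su (F := F) (q := 4) (n := 3) hF' (by norm_num)
  have hZ1 : Nat.card (Subgroup.center (SU 3 F 4)) = 1 := by
    rw [hZ]; norm_num
  have hbot : Subgroup.center (SU 3 F 4) = ⊥ := (Subgroup.eq_bot_iff_card _).2 hZ1
  let π : SU 3 F 4 →* PSU 3 F 4 := QuotientGroup.mk' _
  have hπ : Function.Bijective π := by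
    constructor
    · rw [injective_iff_map_eq_one]
      intro x hx
      have hxZ : x ∈ Subgroup.center (SU 3 F 4) := (QuotientGroup.eq_one_iff _).1 hx
      rw [hbot] at hxZ
      exact hxZ
    · exact QuotientGroup.mk'_surjective _
  have hcard : Fintype.card F = Fintype.card F16 := by rw [hF, F16.card_eq]
  exact ⟨(MulEquiv.ofBijective π hπ).symm.trans (suEquiv' (FiniteField.ringEquivOfCardEq hcard) 3 4)⟩

end transport

end Cfsg.Agent.Lib.H14.U34W
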